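import Cfsg.Agent.H85.L3E
import Mathlib.LinearAlgebra.Matrix.Permutation

/-! The normaliser of `3^(1+4)` in `GL₉`: definitions. -/

set_option autoImplicit false
set_option linter.unusedSectionVars false
set_option linter.unusedVariables false
set_option linter.unusedSimpArgs false

namespace Cfsg.Agent.N9

open Cfsg Cfsg.Geo Cfsg.Agent.H98 Cfsg.Agent.H99 Cfsg.Agent.H85.L3 Matrix

section Gen

variable {F : Type*} [Field F] {n m : Type} [Fintype n] [DecidableEq n] [Fintype m] [DecidableEq m]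

variable (F) in
/-- permutation matrices: `pm F σ` maps `e_j` to `e_(σ j)` -/
def pm : Equiv.Perm n →* GL n F := (Matrix.permMatrixHom (R := F)).toHomUnits

theorem pm_apply (σ : Equiv.Perm n) (i j : n) :
    ((pm F σ : GL n F) : Matrix n n F) i j = if i = σ j then 1 else 0 := by
  change (σ⁻¹.permMatrix F) i j = _
  simp only [Equiv.Perm.permMatrix, PEquiv.toMatrix_apply, Equiv.toPEquiv_apply, Option.mem_def,
    Option.some.injEq]
  exact if_congr (by rw [Equiv.Perm.inv_eq_iff_eq]) rfl rfl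

theorem pm_mul_apply {k : Type} (σ : Equiv.Perm n) (A : Matrix n k F) (i : n) (j : k) :
    (((pm F σ : GL n F) : Matrix n n F) * A) i j = A (σ⁻¹ i) j := by
  rw [Matrix.mul_apply, Finset.sum_eq_single (σ⁻¹ i)]
  · simp [pm_apply]
  · intro b _ hb
    rw [pm_apply, if_neg, zero_mul]
    rintro rfl
    simp at hb
  · simp

theorem mul_pm_apply {k : Type} (σ : Equiv.Perm n) (A : Matrix k n F) (i : k) (j : n) :
    (A * ((pm F σ : GL n F) : Matrix n n F)) i j = A i (σ j) := by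
  simp [Matrix.mul_apply, pm_apply]

theorem conj_pm (σ : Equiv.Perm n) (g : GL n F) (i j : n) :
    ((pm F σ * g * (pm F σ)⁻¹ : GL n F) : Matrix n n F) i j =
      (g : Matrix n n F) (σ⁻¹ i) (σ⁻¹ j) := by
  rw [← map_inv, Units.val_mul, Units.val_mul, mul_pm_apply, pm_mul_apply]

theorem pm_mulVec (σ : Equiv.Perm n) (v : n → F) (i : n) :
    (((pm F σ : GL n F) : Matrix n n F) *ᵥ v) i = v (σ⁻¹ i) := by
  rw [mulVec, dotProduct, Finset.sum_eq_single (σ⁻¹ i)]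
  · simp [pm_apply]
  · intro b _ hb
    rw [pm_apply, if_neg, zero_mul]
    rintro rfl
    simp at hb
  · simp

/-- diagonal matrices -/
def dg : (n → Fˣ) →* GL n F :=
  (Units.map (Matrix.diagonalRingHom n F).toMonoidHom).comp MulEquiv.piUnits.symm.toMonoidHom

theorem coe_dg (t : n → Fˣ) : ((dg t : GL n F) : Matrix n n F) = diagonal fun i => (t i : F) := rfl

theorem dg_apply (t : n → Fˣ) (i j : n) :
    ((dg t : GL n F) : Matrix n n F) i j = if i = j then (t i : F) else 0 := by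
  rw [coe_dg, diagonal_apply]

theorem pm_dg (σ : Equiv.Perm n) (t : n → Fˣ) :
    pm F σ * dg t * (pm F σ)⁻¹ = dg fun i => t (σ⁻¹ i) := by
  ext i j
  simp [conj_pm, dg_apply, -Units.val_mul]

theorem dg_const (c : Fˣ) : dg (fun _ : n => c) = scal n c := by
  ext i j
  simp [dg_apply, coe_scal, one_apply]

/-- `β` at `a`, `β⁻¹` at `b` -/
def dd (a b : n) (β : Fˣ) : GL n F := dg (Pi.mulSingle a β * Pi.mulSingle b β⁻¹)

/-- `g` acts on the image of `J` as `h` -/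
def On (J : Matrix n m F) (g : GL n F) (h : GL m F) : Prop :=
  (g : Matrix n n F) * J = J * (h : Matrix m m F)

theorem On.mul {J : Matrix n m F} {g g' : GL n F} {h h' : GL m F} (a : On J g h) (b : On J g' h') :
    On J (g * g') (h * h') := by
  unfold On at *
  rw [Units.val_mul, Units.val_mul, Matrix.mul_assoc, b, ← Matrix.mul_assoc, a, Matrix.mul_assoc]

theorem On.one {J : Matrix n m F} : On J 1 1 := by simp [On]

theorem On.inv {J : Matrix n m F} {g : GL n F} {h : GL m F} (a : On J g h) : On J g⁻¹ h⁻¹ := by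
  unfold On at *
  calc _ = ((g⁻¹ : GL n F) : Matrix n n F) * (J * (h : Matrix m m F)) * ((h⁻¹ : GL m F) : Matrix m m F) := by
        rw [Matrix.mul_assoc, Matrix.mul_assoc, Units.mul_inv, Matrix.mul_one]
    _ = _ := by rw [← a, ← Matrix.mul_assoc, Units.inv_mul, Matrix.one_mul]

theorem On.pow {J : Matrix n m F} {g : GL n F} {h : GL m F} (a : On J g h) (k : ℕ) :
    On J (g ^ k) (h ^ k) := by
  induction k with
  | zero => simpa using On.one
  | succ k ih => rw [pow_succ, pow_succ]; exact ih.mul a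

theorem On.scal {J : Matrix n m F} (c : Fˣ) : On J (scal n c) (scal m c) := by
  simp [On, coe_scal]

theorem On.unique {J : Matrix n m F} {K : Matrix m n F} (hK : K * J = 1) {g : GL n F}
    {h h' : GL m F} (a : On J g h) (b : On J g h') : h = h' := by
  apply Units.ext
  have := congrArg (K * ·) (a.symm.trans b)
  simpa only [← Matrix.mul_assoc, hK, Matrix.one_mul] using this

/-- If `g` maps the columns of `J` into their span then it acts on that span. -/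
theorem exists_on {J : Matrix n m F} {K : Matrix m n F} (hK : K * J = 1) {g : GL n F}
    (hg : J * (K * ((g : Matrix n n F) * J)) = (g : Matrix n n F) * J) : ∃ h, On J g h := by
  have hd : (K * ((g : Matrix n n F) * J)).det ≠ 0 := fun hd => by
    obtain ⟨v, v0, hv⟩ := exists_mulVec_eq_zero_iff.2 hd
    have h1 : ((g : Matrix n n F) * J) *ᵥ v = 0 := by
      rw [← hg, ← mulVec_mulVec, hv, mulVec_zero]
    have h2 := congrArg (fun x => (K * ((g⁻¹ : GL n F) : Matrix n n F)) *ᵥ x) h1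
    simp only [mulVec_mulVec, mulVec_zero] at h2
    rw [Matrix.mul_assoc, ← Matrix.mul_assoc _ (g : Matrix n n F), Units.inv_mul, Matrix.one_mul,
      hK, one_mulVec] at h2
    exact v0 h2
  exact ⟨GeneralLinearGroup.mkOfDetNeZero _ hd, hg.symm⟩

end Gen

/-- the coordinates of two qutrits -/
abbrev I9 := Fin 3 × Fin 3

variable {F : Type*} [Field F] [Fintype F]

local notation "𝐆" => GL (Fin 3) F
local notation "𝐇" => GL I9 F
local notation "𝐌" => Matrix (Fin 3) (Fin 3) F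
local notation "𝐙" => scalars (Fin 3) F
local notation "𝐕" => ZMod 3 × ZMod 3

/-- block diagonal matrices, the blocks indexed by the second coordinate -/
def bd : (Fin 3 → 𝐆) →* 𝐇 :=
  (Units.map (Matrix.blockDiagonalRingHom (Fin 3) (Fin 3) F).toMonoidHom).comp
    MulEquiv.piUnits.symm.toMonoidHom

theorem bd_apply (f : Fin 3 → 𝐆) (a b : I9) :
    ((bd f : 𝐇) : Matrix I9 I9 F) a b = if a.2 = b.2 then (f a.2 : 𝐌) a.1 b.1 else 0 := rfl

theorem bd_injective : Function.Injective (bd : (Fin 3 → 𝐆) → 𝐇) := fun f g e => by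
  ext k i j
  simpa [bd_apply] using congrArg (fun x : 𝐇 => (x : Matrix I9 I9 F) (i, k) (j, k)) e

/-- `g ⊗ 1` -/
def k1 : 𝐆 →* 𝐇 := bd.comp (Pi.constMonoidHom (Fin 3) 𝐆)

theorem k1_eq (g : 𝐆) : k1 g = bd fun _ => g := rfl

theorem k1_apply (g : 𝐆) (a b : I9) :
    ((k1 g : 𝐇) : Matrix I9 I9 F) a b = if a.2 = b.2 then (g : 𝐌) a.1 b.1 else 0 := rfl

theorem k1_injective : Function.Injective (k1 : 𝐆 → 𝐇) := fun f g e =>
  congrFun (bd_injective e) 0

variable (F) in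
/-- the interchange of the two tensor factors -/
def sw : 𝐇 := pm F (Equiv.prodComm _ _)

theorem sw_sw : sw F * sw F = 1 := by rw [sw, ← map_mul, ← map_one (pm F)]; rfl

theorem sw_inv : (sw F)⁻¹ = sw F := inv_eq_of_mul_eq_one_right sw_sw

/-- `1 ⊗ g` -/
def k2 : 𝐆 →* 𝐇 := (MulAut.conj (sw F)).toMonoidHom.comp k1

theorem sw_k1 (g : 𝐆) : sw F * k1 g * (sw F)⁻¹ = k2 g := rfl

theorem sw_k2 (g : 𝐆) : sw F * k2 g * (sw F)⁻¹ = k1 g := by
  rw [← sw_k1, sw_inv, ← mul_assoc, ← mul_assoc, sw_sw, one_mul, mul_assoc, sw_sw, mul_one]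

theorem k2_apply (g : 𝐆) (a b : I9) :
    ((k2 g : 𝐇) : Matrix I9 I9 F) a b = if a.1 = b.1 then (g : 𝐌) a.2 b.2 else 0 :=
  conj_pm _ _ _ _

theorem k2_injective : Function.Injective (k2 : 𝐆 → 𝐇) :=
  (MulAut.conj (sw F)).injective.comp k1_injective

theorem k1_k2_apply (g g' : 𝐆) (a b : I9) :
    ((k1 g * k2 g' : 𝐇) : Matrix I9 I9 F) a b = (g : 𝐌) a.1 b.1 * (g' : 𝐌) a.2 b.2 := by
  simp [Matrix.mul_apply, k1_apply, k2_apply, Fintype.sum_prod_type]

theorem k1_k2 (g g' : 𝐆) : k1 g * k2 g' = k2 g' * k1 g := by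
  ext a b
  rw [k1_k2_apply]
  simp [Matrix.mul_apply, k1_apply, k2_apply, Fintype.sum_prod_type, mul_comm]

theorem k1_scal (c : Fˣ) : k1 (scal (Fin 3) c) = scal I9 c := by
  ext ⟨i, k⟩ ⟨j, l⟩
  by_cases h : k = l <;> simp [k1_apply, coe_scal, one_apply, h]

theorem k2_scal (c : Fˣ) : k2 (scal (Fin 3) c) = scal I9 c := by
  rw [← sw_k1, k1_scal, ← scal_comm, mul_inv_cancel_right]

theorem k2_dg (t : Fin 3 → Fˣ) : k2 (dg t) = bd fun k => scal (Fin 3) (t k) := by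
  ext ⟨i, k⟩ ⟨j, l⟩
  by_cases h : k = l <;> by_cases h' : i = j <;>
    simp [k2_apply, bd_apply, dg_apply, coe_scal, one_apply, h, h']

theorem bd_dg (t : Fin 3 → Fin 3 → Fˣ) : bd (fun k => dg (t k)) = dg fun a : I9 => t a.2 a.1 := by
  ext ⟨i, k⟩ ⟨j, l⟩
  by_cases h : k = l <;> simp [bd_apply, dg_apply, h]

theorem bd_pm (σ : Fin 3 → Equiv.Perm (Fin 3)) :
    bd (fun k => pm F (σ k)) = pm F (Equiv.prodCongrLeft σ) := by
  ext ⟨i, k⟩ ⟨j, l⟩
  by_cases h : k = l <;> simp [bd_apply, pm_apply, h]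

theorem k2_pm (σ : Equiv.Perm (Fin 3)) :
    k2 (pm F σ) = pm F (Equiv.prodCongr (Equiv.refl (Fin 3)) σ) := by
  ext ⟨i, k⟩ ⟨j, l⟩
  by_cases h : i = j <;> simp [k2_apply, pm_apply, h]

theorem k2_pm_bd (σ : Equiv.Perm (Fin 3)) (f : Fin 3 → 𝐆) :
    k2 (pm F σ) * bd f * (k2 (pm F σ))⁻¹ = bd fun k => f (σ⁻¹ k) := by
  ext ⟨i, k⟩ ⟨j, l⟩
  rw [k2_pm, conj_pm, bd_apply, bd_apply]
  exact if_congr σ⁻¹.injective.eq_iff rfl rfl

theorem k1_bd (g : 𝐆) (f : Fin 3 → 𝐆) :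
    k1 g * bd f * (k1 g)⁻¹ = bd fun k => g * f k * g⁻¹ := by
  rw [k1_eq, ← map_inv, ← map_mul, ← map_mul]; rfl

theorem yG_eq : yG F = pm F (finRotate 3) := by
  ext i j
  rw [pm_apply]
  fin_cases i <;> fin_cases j <;> rfl

variable (F) in
/-- the parity operator -/
def PG : 𝐆 := pm F (Equiv.swap 1 2)

theorem coe_PG : ((PG F : 𝐆) : 𝐌) = !![1, 0, 0; 0, 0, 1; 0, 1, 0] := by
  ext i j
  rw [PG, pm_apply]
  fin_cases i <;> fin_cases j <;> rfl

theorem PG_PG : PG F * PG F = 1 := by rw [PG, ← map_mul, Equiv.swap_mul_self, map_one]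

variable (F) in
/-- the controlled shift -/
noncomputable def cx : 𝐇 := bd fun k => yG F ^ k.val

variable (F) in
/-- the vector `e₁ - e₂` -/
def vA : Fin 3 → F := ![0, 1, -1]

variable (F) in
/-- the embedding `v ↦ (e₁ - e₂) ⊗ v` -/
def JA : Matrix I9 (Fin 3) F := Matrix.of fun a k => if a.2 = k then vA F a.1 else 0

variable {ω : F} (h : Om ω)

/-- the extraspecial group `3^(1+2)` times the scalars -/
def RS3 : Subgroup 𝐆 where
  carrier := {g | ∃ v, Ty ω (g : 𝐌) v}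
  one_mem' := ⟨0, ty_one ω⟩
  mul_mem' := fun ⟨u, hu⟩ ⟨v, hv⟩ => ⟨u + v, h.ty_mul hu hv⟩
  inv_mem' := fun ⟨u, hu⟩ => ⟨-u, h.ty_inv hu⟩

/-- its normaliser -/
def N3 : Subgroup 𝐆 := Subgroup.normalizer (RS3 h : Set 𝐆)

/-- a complement `SL₂(3)` -/
def LL : Subgroup 𝐆 := N3 h ⊓ Subgroup.centralizer {PG F} ⊓ MulAction.stabilizer 𝐆 (vA F)

theorem mem_LL {g : 𝐆} :
    g ∈ LL h ↔ g ∈ N3 h ∧ g * PG F = PG F * g ∧ (g : 𝐌) *ᵥ vA F = vA F :=
  ⟨fun ⟨⟨a, b⟩, c⟩ => ⟨a, Subgroup.mem_centralizer_singleton_iff.1 b, c⟩,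
    fun ⟨a, b, c⟩ => ⟨⟨a, Subgroup.mem_centralizer_singleton_iff.2 b⟩, c⟩⟩

/-- the extraspecial group `3^(1+4)` times the scalars -/
def RS9 : Subgroup 𝐇 where
  carrier := {g | ∃ r ∈ RS3 h, ∃ s ∈ RS3 h, g = k1 r * k2 s}
  one_mem' := ⟨1, one_mem _, 1, one_mem _, by simp⟩
  mul_mem' := by
    rintro _ _ ⟨r, hr, s, hs, rfl⟩ ⟨r', hr', s', hs', rfl⟩
    refine ⟨_, mul_mem hr hr', _, mul_mem hs hs', ?_⟩
    rw [map_mul, map_mul, mul_assoc, mul_assoc, ← mul_assoc (k2 s), ← k1_k2, mul_assoc]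
  inv_mem' := by
    rintro _ ⟨r, hr, s, hs, rfl⟩
    exact ⟨_, inv_mem hr, _, inv_mem hs, by rw [k1_k2 r⁻¹, map_inv, map_inv, _root_.mul_inv_rev]⟩

/-- its normaliser -/
def NN : Subgroup 𝐇 := Subgroup.normalizer (RS9 h : Set 𝐇)

/-- `M` contains the scalars and generators of the normaliser -/
structure Cl (M : Subgroup 𝐇) : Prop where
  sc : scalars I9 F ≤ M
  x : k1 (yG F) ∈ M
  a : k1 h.h1 ∈ M
  t : k1 h.dG ∈ M
  sw : sw F ∈ M
  cx : cx F ∈ M

theorem h1_yG : h.h1 * yG F * h.h1⁻¹ = h.xG := by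
  rw [mul_inv_eq_iff_eq_mul]; exact Units.ext h.h1_y

variable {h} in
theorem Cl.z {M : Subgroup 𝐇} (c : Cl h M) : k1 h.xG ∈ M := by
  rw [← h1_yG, map_mul, map_mul, map_inv]
  exact mul_mem (mul_mem c.a c.x) (inv_mem c.a)

variable {h} in
theorem Cl.k2 {M : Subgroup 𝐇} (c : Cl h M) {g : 𝐆} (hg : k1 g ∈ M) : k2 g ∈ M :=
  mul_mem (mul_mem c.sw hg) (inv_mem c.sw)

/-- the elements supported on the first block -/
def B0 (M : Subgroup 𝐇) : Subgroup 𝐆 := (M.comap bd).comap (MonoidHom.mulSingle (fun _ => 𝐆) 0)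

theorem mem_B0 {M : Subgroup 𝐇} {g : 𝐆} : g ∈ B0 M ↔ bd (Pi.mulSingle 0 g) ∈ M := Iff.rfl

/-- centralisers modulo scalars of the elements of the extraspecial group lie in its normaliser -/
def TI (M : Subgroup 𝐇) : Prop :=
  ∀ x ∈ RS9 h, x ∉ scalars I9 F → ∀ g ∈ M, g * x * g⁻¹ * x⁻¹ ∈ scalars I9 F → g ∈ NN h

/-- `M` contains all `diag (β, β⁻¹, 1, …, 1)` -/
def HD (M : Subgroup 𝐇) (β : Fˣ) : Prop := ∀ a b, a ≠ b → dd a b β ∈ M

end Cfsg.Agent.N9
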