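import Cfsg.Agent.S0058
import Cfsg.Agent.S0205
import Cfsg.Agent.S0215

set_option autoImplicit false

namespace Cfsg.Agent.N9

open Subgroup in
theorem abs_cases {G : Type*} [Group G] {y z : G} (y3 : y ^ 3 = 1) (hz : z ∈ zpowers y) :
    z = 1 ∨ z = y ∨ z = y⁻¹ := by
  obtain ⟨k, rfl⟩ := hz
  beta_reduce
  rw [zpow_eq_zpow_emod k (show y ^ (3 : ℤ) = 1 from (zpow_natCast y 3).trans y3)]
  rcases (by omega : k % 3 = 0 ∨ k % 3 = 1 ∨ k % 3 = 2) with h | h | h <;> rw [h]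
  · exact Or.inl (zpow_zero y)
  · exact Or.inr (Or.inl (zpow_one y))
  · refine Or.inr (Or.inr (eq_inv_of_mul_eq_one_left ?_))
    rw [← y3]
    group

open Subgroup in
theorem gen9_core {G : Type*} [Group G] [Finite G] (B L : Subgroup G)
    (x y : G) (hx : x ^ 3 = 1) (hy : y ^ 3 = 1) (hxy : Commute x y)
    (hind : ∀ i j : ℕ, x ^ i * y ^ j = 1 → 3 ∣ i ∧ 3 ∣ j)
    (nx : ∀ b ∈ B, x * b * x⁻¹ ∈ B) (ny : ∀ b ∈ B, y * b * y⁻¹ ∈ B) (hLB : L ≤ B)
    (hc : ∀ i j : ℕ, x ^ i * y ^ j ≠ 1 → ∀ b ∈ B,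
      b * (x ^ i * y ^ j) = (x ^ i * y ^ j) * b → b ∈ L)
    (hL : ∀ l ∈ L, l * x = x * l ∧ l * y = y * l) (h9 : ¬ 9 ∣ Nat.card L)
    (ht : L = ⊥ ∨ ∃ t ∈ L, t ^ 3 = 1 ∧ t ≠ 1 ∧ ∀ b ∈ B, b * t * b⁻¹ * t ≠ 1) : B ≤ L := by
  have : Fact (Nat.Prime 3) := ⟨Nat.prime_three⟩
  have hm : ∀ i j k l : ℕ, x ^ i * y ^ j * (x ^ k * y ^ l) = x ^ (i + k) * y ^ (j + l) :=
    fun i j k l => by rw [(hxy.pow_pow k j).symm.mul_mul_mul_comm, pow_add, pow_add]
  have h3 : ∀ i j : ℕ, (x ^ i * y ^ j) ^ 3 = 1 := fun i j => by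
    rw [(hxy.pow_pow i j).mul_pow, ← pow_mul, ← pow_mul, mul_comm i, mul_comm j, pow_mul, pow_mul,
      hx, hy, one_pow, one_pow, one_mul]
  let A : Subgroup G :=
    { carrier := {g | ∃ i j : ℕ, x ^ i * y ^ j = g}
      one_mem' := ⟨0, 0, by simp⟩
      mul_mem' := by
        rintro _ _ ⟨i, j, rfl⟩ ⟨k, l, rfl⟩
        exact ⟨_, _, (hm i j k l).symm⟩
      inv_mem' := by
        rintro _ ⟨i, j, rfl⟩
        refine ⟨i + i, j + j, eq_inv_of_mul_eq_one_left ?_⟩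
        rw [← hm, ← h3 i j, pow_succ, sq] }
  have : IsMulCommutative A := ⟨⟨by
    rintro ⟨_, i, j, rfl⟩ ⟨_, k, l, rfl⟩
    refine Subtype.ext ?_
    change x ^ i * y ^ j * (x ^ k * y ^ l) = x ^ k * y ^ l * (x ^ i * y ^ j)
    rw [hm, hm, add_comm i, add_comm j]⟩⟩
  have hA3 : ∀ g : A, g ^ 3 = 1 := by
    rintro ⟨_, i, j, rfl⟩
    exact Subtype.ext (h3 i j)
  have hnc : ¬ IsCyclic A := by
    intro h
    obtain ⟨g, hg⟩ := IsCyclic.exists_monoid_generator (α := A)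
    obtain ⟨m, hm⟩ := hg ⟨x, 1, 0, by simp⟩
    obtain ⟨n, hn⟩ := hg ⟨y, 0, 1, by simp⟩
    replace hm : (g : G) ^ m = x := congrArg Subtype.val hm
    replace hn : (g : G) ^ n = y := congrArg Subtype.val hn
    have g3 : (g : G) ^ 3 = 1 := congrArg Subtype.val (hA3 g)
    obtain ⟨k, rfl⟩ := (hind n (2 * m) (by
      rw [← hm, ← hn, ← pow_mul, ← pow_mul, ← pow_add, show m * n + n * (2 * m) = 3 * (m * n) by ring,
        pow_mul, g3, one_pow])).1
    rw [pow_mul, g3, one_pow] at hn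
    have := (hind 0 1 (by rw [← hn]; simp)).2
    omega
  obtain ⟨k, hk⟩ := IsPGroup.exists_card_eq (p := 3) (G := A) fun g => ⟨1, by rw [pow_one, hA3]⟩
  have hA9 : 9 ∣ Nat.card A := by
    rw [hk]
    refine pow_dvd_pow 3 (show 2 ≤ k from not_lt.1 fun h => hnc ?_)
    interval_cases k
    · have := (Nat.card_eq_one_iff_unique.1 hk).1
      infer_instance
    · exact isCyclic_of_prime_card (p := 3) hk
  have nA : ∀ g ∈ A, ∀ b ∈ B, g * b * g⁻¹ ∈ B := by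
    have h1 : ∀ z : G, (∀ b ∈ B, z * b * z⁻¹ ∈ B) → ∀ i : ℕ, ∀ b ∈ B, z ^ i * b * (z ^ i)⁻¹ ∈ B := by
      intro z hz i
      induction i with
      | zero => simp
      | succ i ih =>
        intro b hb
        have := ih _ (hz b hb)
        rwa [show z ^ i * (z * b * z⁻¹) * (z ^ i)⁻¹ = z ^ (i + 1) * b * (z ^ (i + 1))⁻¹ by group]
          at this
    rintro _ ⟨i, j, rfl⟩ b hb
    have := h1 x nx i _ (h1 y ny j b hb)
    rwa [show x ^ i * (y ^ j * b * (y ^ j)⁻¹) * (x ^ i)⁻¹ = x ^ i * y ^ j * b * (x ^ i * y ^ j)⁻¹ by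
      group] at this
  have cA : ∀ g ∈ A, ∀ l ∈ L, Commute l g := by
    rintro _ ⟨i, j, rfl⟩ l hl
    exact (Commute.pow_right (hL l hl).1 i).mul_right (Commute.pow_right (hL l hl).2 j)
  have hB : 9 ∣ Nat.card {b // b ∈ B ∧ b ∉ L} := by
    let _ : MulAction A {b // b ∈ B ∧ b ∉ L} :=
      { smul := fun g b => ⟨g * b * (g : G)⁻¹, nA g g.2 b b.2.1, fun h => b.2.2 (by
          have := (cA g g.2 _ h).eq
          rw [inv_mul_cancel_right, mul_right_inj] at this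
          exact this ▸ h)⟩
        one_smul := fun b => Subtype.ext (show (1 : G) * b * (1 : G)⁻¹ = b by group)
        mul_smul := fun g h b => Subtype.ext
          (show (g : G) * h * b * ((g : G) * h)⁻¹ = g * (h * b * (h : G)⁻¹) * (g : G)⁻¹ by group) }
    rw [Nat.card_congr (MulAction.selfEquivOrbitsQuotientProd (G := A) fun b => ?_), Nat.card_prod]
    · exact hA9.mul_left _
    rw [eq_bot_iff]
    rintro ⟨_, i, j, rfl⟩ hg
    by_contra h1
    have h2 : x ^ i * y ^ j * b * (x ^ i * y ^ j)⁻¹ = b := congrArg Subtype.val hg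
    exact b.2.2 (hc i j (fun e => h1 (Subtype.ext e)) b b.2.1 (mul_inv_eq_iff_eq_mul.1 h2).symm)
  have hBL : Nat.card B = Nat.card L + Nat.card {b // b ∈ B ∧ b ∉ L} := by
    classical
    rw [← Nat.card_sum]
    refine Nat.card_congr ((Equiv.sumCompl fun b : B => (b : G) ∈ L).symm.trans (Equiv.sumCongr
      ((Equiv.subtypeSubtypeEquivSubtypeInter (· ∈ B) (· ∈ L)).trans
        (Equiv.subtypeEquivRight fun b => ⟨fun h => h.2, fun h => ⟨hLB h, h⟩⟩))
      (Equiv.subtypeSubtypeEquivSubtypeInter (· ∈ B) (· ∉ L))))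
  have key : ∀ O : Subgroup G, O ≤ B → ¬ 3 ∣ Nat.card O → (∀ g ∈ A, ∀ b ∈ O, g * b * g⁻¹ ∈ O) →
      O ≤ L := by
    intro O h1 h2 h3
    rw [← S0058.result A O hnc (fun g hg => mem_normalizer_fintype (h3 g hg))
      (by rw [hk]; exact ((Nat.Prime.coprime_iff_not_dvd Nat.prime_three).2 h2).pow_left k)]
    refine iSup₂_le ?_
    rintro _ ⟨⟨i, j, rfl⟩, h4⟩ b hb
    exact hc i j h4 b (h1 hb.1) (mem_centralizer_singleton_iff.1 hb.2)
  rcases ht with rfl | ⟨t, htL, t3, t1, ht⟩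
  · refine key B le_rfl ?_ nA
    rw [card_bot] at hBL
    omega
  have h4 : Nat.card (zpowers (⟨t, hLB htL⟩ : B)) = 3 := by
    rw [Nat.card_zpowers]
    exact orderOf_eq_prime (Subtype.ext t3) fun e => t1 (congrArg Subtype.val e)
  let P : Sylow 3 B := (IsPGroup.of_card (n := 1) (h4.trans (pow_one 3).symm)).toSylow (by
    have := (zpowers (⟨t, hLB htL⟩ : B)).card_mul_index
    rw [h4] at this
    omega)
  have hP : normalizer (P : Set B) ≤ centralizer (P : Set B) := by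
    intro b hb
    have h5 : b * ⟨t, hLB htL⟩ * b⁻¹ ∈ zpowers (⟨t, hLB htL⟩ : B) :=
      (mem_normalizer_iff.1 hb _).1 (mem_zpowers _)
    have h6 : b * ⟨t, hLB htL⟩ * b⁻¹ = ⟨t, hLB htL⟩ := by
      rcases abs_cases (Subtype.ext t3) h5 with e | e | e
      · exact absurd (congrArg Subtype.val (conj_eq_one_iff.1 e)) t1
      · exact e
      · exact absurd (mul_eq_one_iff_eq_inv.2 (congrArg Subtype.val e)) (ht b b.2)
    rintro _ ⟨k, rfl⟩
    exact (Commute.zpow_right (mul_inv_eq_iff_eq_mul.1 h6) k).symm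
  have h5 := MonoidHom.ker_transferSylow_isComplement' P hP
  have h6 := MonoidHom.not_dvd_card_ker_transferSylow P hP
  have h7 : (MonoidHom.transferSylow P hP).ker.index = 3 := h5.symm.index_eq_card.trans h4
  generalize hK : (MonoidHom.transferSylow P hP).ker = K at h5 h6 h7
  have : K.Normal := hK ▸ inferInstance
  have h8 := key (K.map B.subtype) (map_subtype_le K)
    (by rwa [card_map_of_injective B.subtype_injective]) (by
      rintro g hg _ ⟨b, hb, rfl⟩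
      refine ⟨⟨_, nA g hg b b.2⟩, ?_, rfl⟩
      refine zpowers_le.2 (K.pow_index_mem _) (mem_zpowers_pow_iff.2 ?_)
      rw [h7, ← orderOf_coe]
      refine (Nat.Prime.coprime_iff_not_dvd Nat.prime_three).2 fun h => h6 (h.trans ?_)
      change orderOf (MulAut.conj g (b : G)) ∣ _
      rw [MulEquiv.orderOf_eq, orderOf_coe]
      exact K.orderOf_dvd_natCard hb)
  intro b hb
  obtain ⟨⟨⟨u, hu⟩, ⟨_, k, rfl⟩⟩, e⟩ := h5.2 ⟨b, hb⟩
  have e' : (u : G) * t ^ k = b := congrArg Subtype.val e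
  exact e' ▸ mul_mem (h8 ⟨u, hu, rfl⟩) (zpow_mem htL k)

theorem gen9 {G : Type*} [Group G] [Finite G] (Z : Subgroup G) [Z.Normal] (B L : Subgroup G)
    (x y : G) (hx : x ^ 3 ∈ Z) (hy : y ^ 3 ∈ Z) (hxy : x * y * x⁻¹ * y⁻¹ ∈ Z)
    (hind : ∀ i j : ℕ, x ^ i * y ^ j ∈ Z → 3 ∣ i ∧ 3 ∣ j)
    (nx : ∀ b ∈ B, x * b * x⁻¹ ∈ B) (ny : ∀ b ∈ B, y * b * y⁻¹ ∈ B) (hLB : L ≤ B)
    (hc : ∀ i j : ℕ, x ^ i * y ^ j ∉ Z → ∀ b ∈ B,
      b * (x ^ i * y ^ j) * b⁻¹ * (x ^ i * y ^ j)⁻¹ ∈ Z → b ∈ L ⊔ Z)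
    (hL : ∀ l ∈ L, l * x = x * l ∧ l * y = y * l) (h9 : ¬ 9 ∣ Nat.card L)
    (ht : L = ⊥ ∨ ∃ t ∈ L, t ^ 3 = 1 ∧ t ∉ Z ∧ ∀ b ∈ B, b * t * b⁻¹ * t ∉ Z) :
    B ≤ L ⊔ Z := by
  let π := QuotientGroup.mk' Z
  have hk : ∀ g, π g = 1 ↔ g ∈ Z := fun g => QuotientGroup.eq_one_iff g
  have he : (L.map π).comap π = L ⊔ Z := by rw [Subgroup.comap_map_eq, QuotientGroup.ker_mk']
  rw [← he, ← Subgroup.map_le_iff_le_comap]
  refine gen9_core _ _ (π x) (π y) (by rwa [← map_pow, hk]) (by rwa [← map_pow, hk]) ?_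
    (fun i j h => hind i j ((hk _).1 (by simpa only [map_mul, map_pow] using h))) ?_ ?_
    (Subgroup.map_mono hLB) ?_ ?_ (fun h => h9 (h.trans (L.card_map_dvd π))) ?_
  · have := (hk _).2 hxy
    simp only [map_mul, map_inv] at this
    exact commutatorElement_eq_one_iff_commute.1 this
  · rintro _ ⟨b, hb, rfl⟩
    exact ⟨_, nx b hb, by simp only [map_mul, map_inv]⟩
  · rintro _ ⟨b, hb, rfl⟩
    exact ⟨_, ny b hb, by simp only [map_mul, map_inv]⟩
  · rintro i j h _ ⟨b, hb, rfl⟩ h'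
    refine he.ge (hc i j (fun e => h ?_) b hb ((hk _).1 ?_))
    · simpa only [map_mul, map_pow] using (hk _).2 e
    · simp only [map_mul, map_inv, map_pow]
      rw [h']
      group
  · rintro _ ⟨l, hl, rfl⟩
    simp only [← map_mul, (hL l hl).1, (hL l hl).2, and_self]
  · refine ht.imp (fun h => by rw [h, Subgroup.map_bot]) ?_
    rintro ⟨t, h1, h2, h3, h4⟩
    refine ⟨π t, ⟨t, h1, rfl⟩, by rw [← map_pow, h2, map_one], (hk t).not.2 h3, ?_⟩
    rintro _ ⟨b, hb, rfl⟩ h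
    exact h4 b hb ((hk _).1 (by simpa only [map_mul, map_inv] using h))

open Subgroup in
theorem lemY {G : Type*} [Group G] [Finite G] (N : Subgroup G) [N.Normal]
    (hN : Odd (Nat.card N)) {y u : G} (hy : y ∈ N) (y3 : y ^ 3 = 1) (y1 : y ≠ 1)
    (hc : ∀ g ∈ N, g * y = y * g → g ∈ Subgroup.zpowers y)
    (hu : u ^ 2 * y * (u ^ 2)⁻¹ = y⁻¹) : False := by
  have : Fact (Nat.Prime 3) := ⟨Nat.prime_three⟩
  have h1 : IsPGroup 3 (zpowers (⟨y, hy⟩ : N)) := IsPGroup.of_card (n := 1) (by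
    rw [Nat.card_zpowers, pow_one]
    exact orderOf_eq_prime (Subtype.ext y3) fun e => y1 (congrArg Subtype.val e))
  obtain ⟨S, hS⟩ := h1.exists_le_sylow
  have yS : (⟨y, hy⟩ : N) ∈ S := hS (mem_zpowers _)
  have : Nontrivial S := ⟨⟨⟨_, yS⟩, 1, fun e => y1 (congrArg (fun z : S => ((z : N) : G)) e)⟩⟩
  have := S.2.center_nontrivial
  obtain ⟨⟨z, hz⟩, z1⟩ := exists_ne (1 : center S)
  have h2 : ∀ w : S, ((w : N) : G) * (z : N) = (z : N) * (w : N) := fun w =>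
    congrArg (fun z : S => ((z : N) : G)) (mem_center_iff.1 hz w)
  have h3 : (S : Subgroup N).map N.subtype = zpowers y := by
    refine le_antisymm ?_ (zpowers_le.2 ⟨_, yS, rfl⟩)
    rintro _ ⟨w, hw, rfl⟩
    refine hc _ w.2 ?_
    have h4 := h2 ⟨w, hw⟩
    rcases abs_cases y3 (hc _ (z : N).2 (h2 ⟨_, yS⟩).symm) with e | e | e
    · exact absurd (Subtype.ext (Subtype.ext (Subtype.ext e))) z1
    · rwa [e] at h4
    · rw [e] at h4
      exact (Commute.inv_right_iff.1 h4).eq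
  have h4 := S.normalizer_sup_eq_top
  rw [h3] at h4
  obtain ⟨n, hn, g, hg, rfl⟩ := mem_sup_of_normal_right.1 (h4.ge (mem_top u))
  have h5 : n * n * y * (n * n)⁻¹ = y := by
    rcases abs_cases y3 ((mem_normalizer_iff.1 hn y).1 (mem_zpowers y)) with e | e | e
    · exact absurd (conj_eq_one_iff.1 e) y1
    · calc n * n * y * (n * n)⁻¹ = n * (n * y * n⁻¹) * n⁻¹ := by group
        _ = y := by rw [e, e]
    · calc n * n * y * (n * n)⁻¹ = n * (n * y * n⁻¹) * n⁻¹ := by group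
        _ = y := by rw [e, ← conj_inv, e, inv_inv]
  have hv : n⁻¹ * g * n * g ∈ N := mul_mem (‹N.Normal›.conj_mem' g hg n) hg
  have h6 : (n⁻¹ * g * n * g) * y * (n⁻¹ * g * n * g)⁻¹ = y⁻¹ := by
    calc _ = (n * n)⁻¹ * ((n * g) ^ 2 * y * ((n * g) ^ 2)⁻¹) * (n * n) := by rw [sq]; group
      _ = (n * n)⁻¹ * (n * n * y * (n * n)⁻¹)⁻¹ * (n * n) := by rw [hu, h5]
      _ = y⁻¹ := by group
  generalize n⁻¹ * g * n * g = v at hv h6
  have h7 : Commute (v * v) y := by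
    refine mul_inv_eq_iff_eq_mul.1 ?_
    calc v * v * y * (v * v)⁻¹ = v * (v * y * v⁻¹) * v⁻¹ := by group
      _ = y := by rw [h6, ← conj_inv, h6, inv_inv]
  obtain ⟨k, hk⟩ := hN
  have h8 : v ^ (2 * k + 1) = 1 := by
    rw [← hk]
    exact congrArg Subtype.val (pow_card_eq_one' (x := (⟨v, hv⟩ : N)))
  rw [pow_succ, pow_mul, sq] at h8
  have h9 : Commute v y := by
    rw [eq_inv_of_mul_eq_one_right h8]
    exact (h7.pow_left k).inv_left
  rw [h9.eq, mul_inv_cancel_right] at h6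
  apply y1
  calc y = y ^ 3 * y⁻¹ * y⁻¹ := by group
    _ = 1 := by rw [y3, one_mul]; nth_rewrite 1 [← h6]; exact mul_inv_cancel y

open Subgroup in
theorem abs_exists_el {G : Type*} [Group G] [Finite G] {N : Subgroup G} (hN : N.Normal)
    (h1 : N ≠ ⊥) [Group.IsSolvable N] : ∃ (A : Subgroup G) (l : ℕ), A.Normal ∧ A ≠ ⊥ ∧ l.Prime ∧
      (∀ a ∈ A, ∀ b ∈ A, Commute a b) ∧ ∀ a ∈ A, a ^ l = 1 := by
  obtain ⟨A, ⟨hA, h2, h3⟩, h4⟩ := exists_minimal_of_wellFoundedLT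
    (fun A : Subgroup G => A.Normal ∧ A ≤ N ∧ A ≠ ⊥) ⟨N, hN, le_rfl, h1⟩
  have h5 : ∀ D : Subgroup G, D.Normal → D ≤ A → D = ⊥ ∨ A ≤ D := fun D h5 h6 =>
    (em _).imp_right fun h7 => h4 ⟨h5, h6.trans h2, h7⟩ h6
  have : Nontrivial A := (nontrivial_iff_ne_bot A).2 h3
  have : Group.IsSolvable A := Group.isSolvable_of_isSolvable_injective (inclusion_injective h2)
  have h7 := (h5 _ inferInstance (commutator_le_left A A)).resolve_right
    fun h7 => (Group.IsSolvable.commutator_lt_top_of_nontrivial A).not_ge fun x _ => by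
      obtain ⟨y, hy, h8⟩ := (map_subtype_commutator A).ge (h7 x.2)
      exact Subtype.ext h8 ▸ hy
  have h8 : ∀ a ∈ A, ∀ b ∈ A, Commute a b := fun a ha b hb =>
    commutatorElement_eq_one_iff_commute.1 (mem_bot.1 (h7 ▸ commutator_mem_commutator ha hb))
  obtain ⟨l, hl, h9⟩ := Nat.exists_prime_and_dvd (mt card_eq_one.1 h3)
  have := Fact.mk hl
  obtain ⟨x, hx⟩ := exists_prime_orderOf_dvd_card' l h9
  let D : Subgroup G :=
    { carrier := {a | a ∈ A ∧ a ^ l = 1}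
      one_mem' := ⟨one_mem _, one_pow l⟩
      mul_mem' := fun {a b} ha hb => ⟨mul_mem ha.1 hb.1, by
        rw [(h8 _ ha.1 _ hb.1).mul_pow, ha.2, hb.2, one_mul]⟩
      inv_mem' := fun {a} ha => ⟨inv_mem ha.1, by rw [inv_pow, ha.2, inv_one]⟩ }
  have h10 := (h5 D ⟨fun a ha g => ⟨hA.conj_mem a ha.1 g, by
      rw [conj_pow, ha.2, mul_one, mul_inv_cancel]⟩⟩ fun a ha => ha.1).resolve_left fun e => by
    have : (x : G) ∈ D := ⟨x.2, congrArg Subtype.val (hx ▸ pow_orderOf_eq_one x)⟩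
    rw [e, mem_bot] at this
    rw [show x = 1 from Subtype.ext this, orderOf_one] at hx
    exact hl.one_lt.ne hx
  exact ⟨A, l, hA, h3, hl, h8, fun a ha => (h10 ha).2⟩

open Subgroup in
theorem ti_abs {G : Type*} [Group G] [Finite G] (E Q : Subgroup G) (τ a s s' : G)
    (e3 : ∀ e ∈ E, e ^ 3 = 1) (ec : ∀ e ∈ E, ∀ e' ∈ E, e * e' = e' * e)
    (cE : ∀ g, (∀ e ∈ E, g * e = e * g) → g ∈ E)
    (nc : ∃ x ∈ E, ∃ y ∈ E, ∀ i j : ℕ, x ^ i * y ^ j = 1 → 3 ∣ i ∧ 3 ∣ j)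
    (tr : ∀ x ∈ E, ∀ y ∈ E, x ≠ 1 → y ≠ 1 →
      ∃ n ∈ Subgroup.normalizer (E : Set G), n * x * n⁻¹ = y)
    (ti : ∀ x ∈ E, x ≠ 1 → ∀ g, g * x = x * g → g ∈ Subgroup.normalizer (E : Set G))
    (hι : ∃ e ∈ E, s * s' * e ≠ e * (s * s'))
    (hQ : IsPGroup 2 Q) (ha : a ∈ Q) (hs : a * a = s) (hτ : τ * τ = 1) (hs' : τ * s * τ = s')
    (nτ : ∀ q ∈ Q, τ * q * τ ∈ Q) (s2 : s * s = 1) (s1 : s ≠ 1) (cs : s * s' = s' * s)
    (iQ : ∀ q ∈ Q, q * q = 1 → q = 1 ∨ q = s ∨ q = s' ∨ q = s * s')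
    (iτ : ∀ q ∈ Q, q * τ * (q * τ) = 1 → IsConj τ (q * τ))
    (n1 : ¬ IsConj (s * s') s) (n2 : ¬ IsConj (s * s') τ)
    (hJ : ∀ g : G, (∃ k : ℕ, g ^ 2 ^ k = 1) → g * s = s * g → g * s' = s' * g → g ∈ Q) :
    E.Normal := by
  have : Fact (Nat.Prime 2) := ⟨Nat.prime_two⟩
  have τi : τ⁻¹ = τ := inv_eq_of_mul_eq_one_right hτ
  have tt : ∀ g : G, τ * (τ * g) = g := fun g => by rw [← mul_assoc, hτ, one_mul]
  have hss : τ * s' * τ = s := by rw [← hs']; simp only [mul_assoc, tt, hτ, mul_one]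
  have s2' : s' * s' = 1 := by rw [← hs']; simp only [mul_assoc, tt]; rw [← mul_assoc s, s2, one_mul, hτ]
  have cj : IsConj s s' := isConj_iff.2 ⟨τ, by rw [τi, hs']⟩
  have i1 : s * s' ≠ 1 := fun e => by
    obtain ⟨x, -, hx⟩ := hι
    exact hx (by rw [e, one_mul, mul_one])
  have i2 : s * s' * (s * s') = 1 := by
    rw [mul_assoc, ← mul_assoc s', ← cs, mul_assoc, s2', mul_one, s2]
  have hq : ∀ g h : G, g * τ ∈ Q → h * τ ∈ Q → g * h ∈ Q := fun g h hg hh => by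
    have := mul_mem hg (nτ _ hh)
    simpa only [mul_assoc, tt, hτ, mul_one] using this
  let T : Subgroup G :=
    { carrier := {g | g ∈ Q ∨ g * τ ∈ Q}
      one_mem' := Or.inl (one_mem Q)
      mul_mem' := by
        rintro g h (hg | hg) (hh | hh)
        · exact Or.inl (mul_mem hg hh)
        · exact Or.inr (mul_assoc g h τ ▸ mul_mem hg hh)
        · refine Or.inr ?_
          have := mul_mem hg (nτ _ hh)
          simpa only [mul_assoc, tt] using this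
        · exact Or.inl (hq g h hg hh)
      inv_mem' := by
        rintro g (hg | hg)
        · exact Or.inl (inv_mem hg)
        · refine Or.inr ?_
          have := nτ _ (inv_mem hg)
          simpa only [mul_inv_rev, τi, mul_assoc, tt] using this }
  have sqT : ∀ g ∈ T, g * g ∈ Q := by
    rintro g (hg | hg)
    exacts [mul_mem hg hg, hq g g hg hg]
  have τT : τ ∈ T := Or.inr (hτ ▸ one_mem Q)
  have hT : IsPGroup 2 T := fun g => by
    obtain ⟨k, hk⟩ := hQ ⟨_, sqT g g.2⟩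
    refine ⟨k + 1, Subtype.ext ?_⟩
    rw [coe_pow, pow_succ', pow_mul, sq]
    exact congrArg Subtype.val hk
  obtain ⟨P, hP⟩ := hT.exists_le_sylow
  have hPT : (P : Subgroup G) ≤ T := by
    by_contra h
    have := P.2.isNilpotent
    obtain ⟨g, hg, hgT⟩ := SetLike.exists_of_lt (Group.normalizerCondition_of_isNilpotent
      (T.subgroupOf P) (lt_top_iff_ne_top.2 fun e => h (subgroupOf_eq_top.1 e)))
    have h1 : ∀ q ∈ T, (g : G) * q * (g : G)⁻¹ ∈ T := fun q hq =>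
      (mem_normalizer_iff.1 hg ⟨q, hP hq⟩).1 hq
    have h2 : ∀ b ∈ T, ∀ r, b * b = r → IsConj s r →
        (g : G) * r * (g : G)⁻¹ = s ∨ (g : G) * r * (g : G)⁻¹ = s' := by
      rintro b hb _ rfl hr
      have h3 := sqT _ (h1 b hb)
      rw [conj_mul] at h3
      have h4 : IsConj s ((g : G) * (b * b) * (g : G)⁻¹) := hr.trans (isConj_iff.2 ⟨g, rfl⟩)
      obtain ⟨c, hc⟩ := isConj_iff.1 h4
      rcases iQ _ h3 (by rw [← hc, conj_mul, s2, mul_one, mul_inv_cancel]) with e | e | e | e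
      · rw [e] at h4
        exact absurd (isConj_one_left.1 h4) s1
      · exact Or.inl e
      · exact Or.inr e
      · exact absurd (e ▸ h4).symm n1
    have h3 : ∀ w ∈ (P : Subgroup G), w * s * w⁻¹ = s → w * s' * w⁻¹ = s' → w ∈ T :=
      fun w hw e1 e2 => Or.inl (hJ w ((P.2 ⟨w, hw⟩).imp fun k hk => congrArg Subtype.val hk)
        (mul_inv_eq_iff_eq_mul.1 e1) (mul_inv_eq_iff_eq_mul.1 e2))
    have h4 : (g : G) * s * (g : G)⁻¹ ≠ (g : G) * s' * (g : G)⁻¹ := fun e =>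
      i1 (by rw [← mul_left_cancel (mul_right_cancel e), s2])
    rcases h2 a (Or.inl ha) s hs (IsConj.refl s) with e1 | e1 <;>
      rcases h2 (τ * a * τ) (Or.inl (nτ a ha)) s' (by
        rw [← hs', ← hs]; simp only [mul_assoc, tt]) cj with e2 | e2
    · exact h4 (e1.trans e2.symm)
    · exact hgT (h3 g g.2 e1 e2)
    · have := mul_mem τT (h3 (τ * g) (mul_mem (hP τT) g.2)
        (by rw [mul_inv_rev, τi, mul_assoc τ, ← mul_assoc, mul_assoc τ, e1, hss])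
        (by rw [mul_inv_rev, τi, mul_assoc τ, ← mul_assoc, mul_assoc τ, e2, hs']))
      rw [tt] at this
      exact hgT this
    · exact h4 (e1.trans e2.symm)
  have sQ : s ∈ Q := hs ▸ mul_mem ha ha
  obtain ⟨N, hN, hodd, hZ⟩ := S0215.result P (s * s') (orderOf_eq_prime (by rw [sq, i2]) i1)
    (hP (Or.inl (mul_mem sQ (hs' ▸ nτ s sQ)))) (fun g hg => by
      have h1 : IsConj (s * s') (g * (s * s') * g⁻¹) := isConj_iff.2 ⟨g, rfl⟩
      have h2 : g * (s * s') * g⁻¹ * (g * (s * s') * g⁻¹) = 1 := by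
        rw [conj_mul, i2, mul_one, mul_inv_cancel]
      rcases hPT hg with h | h
      · rcases iQ _ h h2 with e | e | e | e
        · exact absurd (conj_eq_one_iff.1 e) i1
        · rw [e] at h1
          exact absurd h1 n1
        · rw [e] at h1
          exact absurd (h1.trans cj.symm) n1
        · exact e
      · have h3 := iτ _ h
        rw [mul_assoc _ τ τ, hτ, mul_one] at h3
        exact absurd (h1.trans (h3 h2).symm) n2)
  have := S0205.result hodd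
  obtain ⟨A, l, hA, A1, hl, Ac, Al⟩ := abs_exists_el hN fun e => by
    obtain ⟨x, -, hx⟩ := hι
    have := hZ x
    rw [e, mem_bot, mul_inv_eq_one, mul_inv_eq_iff_eq_mul] at this
    exact hx this
  by_cases l3 : l = 3
  · subst l3
    have := Fact.mk hl
    let _ : MulAction E A := MulAction.compHom A ((MulAut.conjNormal : G →* MulAut A).comp E.subtype)
    have hE : IsPGroup 3 E := fun e => ⟨1, Subtype.ext (by rw [pow_one]; exact e3 e e.2)⟩
    have hA3 : IsPGroup 3 A := fun e => ⟨1, Subtype.ext (by rw [pow_one]; exact Al e e.2)⟩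
    obtain ⟨b, hb, b1⟩ := hE.exists_fixed_point_of_prime_dvd_card_of_fixed_point A
      (hA3.card_eq_or_dvd.resolve_left (mt card_eq_one.1 A1)) (a := 1)
      fun e => map_one (MulAut.conjNormal (e : G))
    have bE : (b : G) ∈ E := cE _ fun e he =>
      (mul_inv_eq_iff_eq_mul.1 (congrArg Subtype.val (hb ⟨e, he⟩))).symm
    have EA : E ≤ A := fun y hy => by
      by_cases y1 : y = 1
      · exact y1 ▸ one_mem A
      obtain ⟨n, -, rfl⟩ := tr b bE y hy (fun e => b1 (Subtype.ext e).symm) y1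
      exact hA.conj_mem _ b.2 n
    exact le_antisymm (fun g hg => cE g fun e he => Ac g hg e (EA he)) EA ▸ hA
  obtain ⟨x, hx, y, hy, hind⟩ := nc
  have h1 : ∀ g ∈ A, g ∈ E → g = 1 := fun g h1 h2 => orderOf_eq_one_iff.1
    (Nat.eq_one_of_dvd_coprimes ((Nat.coprime_primes hl Nat.prime_three).2 l3)
      (orderOf_dvd_of_pow_eq_one (Al g h1)) (orderOf_dvd_of_pow_eq_one (e3 g h2)))
  refine absurd (le_bot_iff.1 (gen9_core A ⊥ x y (e3 x hx) (e3 y hy) (ec x hx y hy) hind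
    (fun b hb => hA.conj_mem b hb x) (fun b hb => hA.conj_mem b hb y) bot_le
    (fun i j h b hb hc => h1 b hb (cE b fun e he => ?_)) (fun l hl => by simp [mem_bot.1 hl])
    (by simp) (Or.inl rfl))) A1
  have h2 := ti _ (mul_mem (pow_mem hx i) (pow_mem hy j)) h b hc
  have h3 := h1 (b * e * b⁻¹ * e⁻¹) (by
    rw [mul_assoc, mul_assoc, ← mul_assoc e]
    exact mul_mem hb (hA.conj_mem _ (inv_mem hb) e))
    (mul_mem ((mem_normalizer_iff.1 h2 e).1 he) (inv_mem he))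
  rwa [mul_inv_eq_one, mul_inv_eq_iff_eq_mul] at h3

end Cfsg.Agent.N9
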