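import Cfsg.Agent.C6.DK
import Cfsg.Agent.N9.Defs

set_option autoImplicit false
set_option linter.unusedSectionVars false
set_option linter.unusedVariables false

namespace Cfsg.Agent.N9

open Cfsg Cfsg.Geo Matrix

namespace Dk

open Cfsg.Agent.H27 Cfsg.Agent.H28 Cfsg.Agent.H98
open scoped MatrixGroups

theorem s4_c3 : ∀ s : Equiv.Perm (Fin 4), s ^ 3 = 1 → s ≠ 1 → ∀ z, z * s = s * z → z ^ 3 = 1 := by
  decide +kernel

theorem a4_c3 : ∀ s : alternatingGroup (Fin 4), s ^ 3 = 1 → s ≠ 1 →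
    ∀ z, z * s = s * z → z ^ 3 = 1 := by
  decide +kernel

theorem a5_c3 : ∀ s : alternatingGroup (Fin 5), s ^ 3 = 1 → s ≠ 1 →
    ∀ z, z * s = s * z → z ^ 3 = 1 := by
  decide +kernel

theorem c3_of {G H : Type*} [Group G] [Group H] (e : G ≃* H)
    (h : ∀ s : H, s ^ 3 = 1 → s ≠ 1 → ∀ z, z * s = s * z → z ^ 3 = 1) {s z : G} (s3 : s ^ 3 = 1)
    (s1 : s ≠ 1) (hz : z * s = s * z) : z ^ 3 = 1 := by
  apply e.injective
  rw [map_pow, map_one]
  exact h (e s) (by rw [← map_pow, s3, map_one]) (by simpa using s1) (e z)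
    (by rw [← map_mul, ← map_mul, hz])

theorem pgl_dk3 {K : Type*} [Field K] [IsAlgClosed K] (p : ℕ) [Fact p.Prime] [CharP K p]
    (Γ : Subgroup PGL(2, K)) [Finite Γ] (ht : ∀ g : Γ, g ^ p = 1 → g = 1) {s t z : Γ}
    (s3 : s ^ 3 = 1) (t3 : t ^ 3 = 1) (st : s * t ≠ t * s) (hz : z * s = s * z) : z ^ 3 = 1 := by
  classical
  have M : Mob p K Γ (OnePoint K) :=
    (mob_pgl p).of_hom Γ.subtype Γ.subtype_injective fun _ _ => rfl
  have key : ∀ x : OnePoint K, s • x = x → t • x = x → False := fun x h1 h2 => by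
    have := M.isCyclic_of_tame (x := x) le_rfl fun g _ => ht g
    exact st (congrArg Subtype.val
      (mul_comm' (⟨s, h1⟩ : MulAction.stabilizer Γ x) (⟨t, h2⟩ : MulAction.stabilizer Γ x)))
  have s1 : s ≠ 1 := fun e => st (by rw [e, one_mul, mul_one])
  have t1 : t ≠ 1 := fun e => st (by rw [e, one_mul, mul_one])
  have k : ∀ u : Γ, u ^ 3 = 1 → u * u = 1 → u = 1 := fun u h3 h2 => by
    rwa [pow_succ, pow_two, h2, one_mul] at h3
  rcases M.classify_tame fun x => eq_bot_iff.2 fun g hg => ht g hg.2 with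
    ⟨x, hx⟩ | ⟨x, hx⟩ | ⟨⟨e⟩⟩ | ⟨⟨e⟩⟩ | ⟨⟨e⟩⟩
  · exact (key x (hx s) (hx t)).elim
  · obtain ⟨y, h1, h2, -⟩ := Mob.pair_of_index_two hx
    exact (key x ((h2 s).resolve_right fun h => s1 (k s s3
      (M.mul_self_of_swap h1 h.1 h.2))).1 ((h2 t).resolve_right fun h => t1 (k t t3
      (M.mul_self_of_swap h1 h.1 h.2))).1).elim
  · exact c3_of e a4_c3 s3 s1 hz
  · exact c3_of e s4_c3 s3 s1 hz
  · exact c3_of e a5_c3 s3 s1 hz

variable {F : Type*} [Field F]

theorem exists_psi : ∃ ψ : GL (Fin 2) F →* PGL(2, AlgebraicClosure F),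
    ∀ g, ψ g = 1 ↔ g ∈ scalars (Fin 2) F := by
  refine ⟨Matrix.ProjGenLinGroup.mk.comp (Matrix.GeneralLinearGroup.map
    (algebraMap F (AlgebraicClosure F))), fun g => ?_⟩
  rw [MonoidHom.comp_apply, pgl_mk_eq_one_iff]
  change algebraMap F _ (g.1 0 1) = 0 ∧ algebraMap F _ (g.1 1 0) = 0 ∧
    algebraMap F _ (g.1 0 0) = algebraMap F _ (g.1 1 1) ↔ _
  simp only [map_eq_zero, (algebraMap F (AlgebraicClosure F)).injective.eq_iff]
  constructor
  · rintro ⟨h1, h2, h3⟩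
    refine mem_scalars_of_coe_eq (c := g.1 0 0) ?_
    ext i j
    fin_cases i <;> fin_cases j <;> simp [h1, h2, h3]
  · intro h
    obtain ⟨c, h⟩ := (mem_scalars_iff g).1 h
    simp [h]

theorem tv_of_unip (p : ℕ) [Fact p.Prime] [CharP F p] {u : GL (Fin 2) F} (h1 : u ^ p = 1)
    (h2 : u ≠ 1) : ∃ v φ : Fin 2 → F, v ≠ 0 ∧ φ ≠ 0 ∧ φ ⬝ᵥ v = 0 ∧
      (u : Matrix (Fin 2) (Fin 2) F) = 1 + vecMulVec v φ := by
  obtain ⟨N, hN⟩ : ∃ N : Matrix (Fin 2) (Fin 2) F, N = u.1 - 1 := ⟨_, rfl⟩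
  have Np : N ^ p = 0 := by
    have := congrArg (Polynomial.aeval u.1)
      (sub_pow_char (Polynomial.X : Polynomial F) 1 (p := p))
    rw [one_pow, map_pow, map_sub, map_sub, map_pow, Polynomial.aeval_X, map_one, ← hN] at this
    rw [this, ← Units.val_pow_eq_pow_val, h1, Units.val_one, sub_self]
  have N0 : N ≠ 0 := fun e => h2 (Units.ext (by rwa [hN, sub_eq_zero] at e))
  have tr : N 0 0 + N 1 1 = 0 := by
    have := (Matrix.isNilpotent_trace_of_isNilpotent ⟨p, Np⟩).eq_zero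
    rwa [Matrix.trace_fin_two] at this
  have de : N 0 0 * N 1 1 - N 0 1 * N 1 0 = 0 := by
    have := congrArg Matrix.det Np
    rw [det_pow, det_zero, det_fin_two] at this
    exact pow_eq_zero_iff (Fact.out : p.Prime).ne_zero |>.1 this
  have hu : u.1 = 1 + N := by rw [hN]; abel
  have h11 : N 1 1 = - N 0 0 := by linear_combination tr
  by_cases b : N 0 1 = 0
  · have a : N 0 0 = 0 := by
      rw [h11, b] at de
      have : N 0 0 * N 0 0 = 0 := by linear_combination -de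
      exact mul_self_eq_zero.1 this
    have c : N 1 0 ≠ 0 := fun c => N0 (by
      ext i j
      fin_cases i <;> fin_cases j <;> simp [a, b, c, h11])
    refine ⟨![0, 1], ![N 1 0, 0], by simp, by simp [c], by simp, ?_⟩
    rw [hu]
    congr 1
    ext i j
    fin_cases i <;> fin_cases j <;> simp [vecMulVec_apply, a, b, h11]
  · refine ⟨![1, - N 0 0 / N 0 1], ![N 0 0, N 0 1], by simp, by simp [b], ?_, ?_⟩
    · simp only [vec2_dotProduct, cons_val_zero, cons_val_one]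
      field_simp
      ring
    · rw [hu]
      congr 1
      rw [h11] at de
      ext i j
      fin_cases i <;> fin_cases j
      · simp [vecMulVec_apply]
      · simp [vecMulVec_apply]
      · simp only [vecMulVec_apply, Fin.mk_one, Fin.zero_eta, cons_val_one, cons_val_zero,
          cons_val_fin_one]
        field_simp
        linear_combination -de
      · simp only [vecMulVec_apply, Fin.mk_one, cons_val_one, cons_val_zero, cons_val_fin_one, h11]
        field_simp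

end Dk

open Cfsg.Agent.H98 in
theorem dk3 {F : Type*} [Field F] [Fintype F] (h2 : (2 : F) ≠ 0) (h3 : (3 : F) ≠ 0)
    (Γ Y : Subgroup (GL (Fin 2) F)) (hY : ∀ g ∈ Γ, g ^ 12 ∈ Y) {t t' z : GL (Fin 2) F}
    (ht : t ∈ Γ) (ht' : t' ∈ Γ) (hz : z ∈ Γ) (t3 : t ^ 3 ∈ scalars (Fin 2) F)
    (t3' : t' ^ 3 ∈ scalars (Fin 2) F) (htt : t * t' * t⁻¹ * t'⁻¹ ∉ scalars (Fin 2) F)
    (hzt : z * t = t * z) (z3 : z ^ 3 ∉ scalars (Fin 2) F) :
    ∃ u ∈ Y, ∃ v φ : Fin 2 → F, v ≠ 0 ∧ φ ≠ 0 ∧ φ ⬝ᵥ v = 0 ∧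
      (u : Matrix (Fin 2) (Fin 2) F) = 1 + vecMulVec v φ := by
  classical
  obtain ⟨ψ, hψ⟩ := Dk.exists_psi (F := F)
  obtain ⟨p, hp⟩ := CharP.exists F
  have hpp : p.Prime := CharP.char_is_prime F p
  have : Fact p.Prime := ⟨hpp⟩
  have : Finite (Γ.map ψ) := Finite.of_surjective _ (ψ.subgroupMap_surjective Γ)
  by_contra hB
  have := Dk.pgl_dk3 p (Γ.map ψ) ?_ (s := ⟨_, t, ht, rfl⟩) (t := ⟨_, t', ht', rfl⟩)
    (z := ⟨_, z, hz, rfl⟩)
    (Subtype.ext (by simpa [← map_pow, hψ] using t3))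
    (Subtype.ext (by simpa [← map_pow, hψ] using t3'))
    (fun e => htt (by
      have e : ψ t * ψ t' = ψ t' * ψ t := congrArg Subtype.val e
      rw [← hψ, map_mul, map_mul, map_mul, map_inv, map_inv, e]
      group))
    (Subtype.ext (by
      change ψ z * ψ t = ψ t * ψ z
      rw [← map_mul, hzt, map_mul]))
  · exact z3 (by simpa [← map_pow, hψ] using congrArg Subtype.val this)
  rintro ⟨_, g, hg, rfl⟩ e
  by_contra h1
  have e0 : ψ g ^ p = 1 := congrArg Subtype.val e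
  have e1 : g ^ p ∈ scalars (Fin 2) F := by rwa [← map_pow, hψ] at e0
  obtain ⟨c, hc⟩ := mem_scalars_iff'.1 e1
  have cop : p.Coprime ((Fintype.card F - 1) * 12) := by
    refine (Nat.Prime.coprime_iff_not_dvd hpp).2 fun hd => ?_
    have := (CharP.cast_eq_zero_iff F p _).2 hd
    rw [Nat.cast_mul, Nat.cast_sub Fintype.card_pos, FiniteField.cast_card_eq_zero] at this
    have e12 : ((12 : ℕ) : F) = 2 * 2 * 3 := by norm_num
    rw [e12] at this
    simp [h2, h3] at this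
  obtain ⟨v, φ, a⟩ := Dk.tv_of_unip p (u := (g ^ (Fintype.card F - 1)) ^ 12)
    (by
      rw [← pow_mul, ← pow_mul, ← mul_assoc, mul_comm, pow_mul, hc, pow_mul, ← scal_pow,
        show c ^ (Fintype.card F - 1) = 1 from
          Units.ext (by simpa using FiniteField.pow_card_sub_one_eq_one (c : F) c.ne_zero),
        scal_one, one_pow])
    (fun e2 => h1 (Subtype.ext (by
      change ψ g = 1
      have e3 : ψ g ^ ((Fintype.card F - 1) * 12) = 1 := by
        rw [← map_pow, pow_mul, e2, map_one]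
      exact (pow_eq_one_iff_of_coprime cop).1 ⟨e0, e3⟩)))
  exact hB ⟨_, hY _ (Γ.pow_mem hg _), v, φ, a⟩

end Cfsg.Agent.N9
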