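import Cfsg.Agent.N9.Loc

/-! A transvection in one block generates `SL₉` together with the normaliser of `3^(1+4)`. -/

set_option autoImplicit false
set_option linter.unusedSectionVars false

namespace Cfsg.Agent.N9

open Cfsg Cfsg.Geo Cfsg.Agent.H99 Cfsg.Agent.H85.L3 Matrix

namespace FinL

variable {F : Type*} [Field F] [Fintype F] {B : Subgroup (GL (Fin 3) F)} {w φ ψ : Fin 3 → F}

local notation "𝐆" => GL (Fin 3) F
local notation "𝐌" => Matrix (Fin 3) (Fin 3) F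

/-- the transvection `1 + w φ` lies in `B` -/
def TT (B : Subgroup 𝐆) (w φ : Fin 3 → F) : Prop := ∃ g ∈ B, (g : 𝐌) = 1 + vecMulVec w φ

theorem TT.add (e : φ ⬝ᵥ w = 0) (a : TT B w φ) (b : TT B w ψ) : TT B w (φ + ψ) := by
  obtain ⟨g, hg, e1⟩ := a
  obtain ⟨g', hg', e2⟩ := b
  refine ⟨_, mul_mem hg hg', ?_⟩
  rw [Units.val_mul, e1, e2, add_mul, mul_add, mul_add, vmv_mul_vmv, e, vecMulVec_add]
  simp only [one_mul, mul_one, zero_smul, add_zero]
  abel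

theorem TT.smul {p : ℕ} (hp : p.Prime) (hF : Fintype.card F = p) (e : φ ⬝ᵥ w = 0) (a : TT B w φ)
    (c : F) : TT B w (c • φ) := by
  haveI : CharP F p := haveI := Fact.mk hp; charP_of_card_eq_prime hF
  haveI := NeZero.mk hp.ne_zero
  obtain ⟨x, rfl⟩ := (ZMod.ringEquivOfPrime F hp hF).surjective c
  rw [← ZMod.natCast_zmod_val x, map_natCast]
  induction x.val with
  | zero => exact ⟨1, one_mem _, by simp⟩
  | succ n ih =>
    rw [Nat.cast_succ, add_smul, one_smul, add_comm]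
    exact a.add e ih

theorem TT.conj {g : 𝐆} (hg : ∀ b ∈ B, g * b * g⁻¹ ∈ B) (a : TT B w φ) (e : ψ ᵥ* (g : 𝐌) = φ) :
    TT B ((g : 𝐌) *ᵥ w) ψ := by
  obtain ⟨b, hb, e1⟩ := a
  refine ⟨_, hg b hb, ?_⟩
  rw [Units.val_mul, Units.val_mul, e1, mul_add, add_mul, mul_one, Units.mul_inv, mul_vecMulVec,
    vecMulVec_mul, ← e, vecMul_vecMul, Units.mul_inv, vecMul_one]

/-- transvections commuting with the parity operator -/
structure Gd (B : Subgroup 𝐆) (w φ : Fin 3 → F) : Prop where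
  w0 : w ≠ 0
  φ0 : φ ≠ 0
  hw : ((PG F : 𝐆) : 𝐌) *ᵥ w = w
  hφ : φ ᵥ* ((PG F : 𝐆) : 𝐌) = φ
  e : φ ⬝ᵥ w = 0
  t : TT B w φ

theorem P_mulVec : ((PG F : 𝐆) : 𝐌) *ᵥ w = w ↔ w 1 = w 2 := by
  rw [coe_PG, funext_iff, Fin.forall_fin_succ, Fin.forall_fin_two]
  simpa [mulVec, dotProduct, Fin.sum_univ_three] using fun e : w 1 = w 2 => e.symm

theorem vecMul_P : φ ᵥ* ((PG F : 𝐆) : 𝐌) = φ ↔ φ 1 = φ 2 := by
  rw [coe_PG, funext_iff, Fin.forall_fin_succ, Fin.forall_fin_two]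
  simpa [vecMul, dotProduct, Fin.sum_univ_three] using fun e : φ 1 = φ 2 => e.symm

theorem Gd.conj {g : 𝐆} (hg : ∀ b ∈ B, g * b * g⁻¹ ∈ B) (hP : g * PG F = PG F * g)
    (a : Gd B w φ) : Gd B ((g : 𝐌) *ᵥ w) (φ ᵥ* ((g⁻¹ : 𝐆) : 𝐌)) := by
  have e : φ ᵥ* ((g⁻¹ : 𝐆) : 𝐌) ᵥ* (g : 𝐌) = φ := by rw [vecMul_vecMul, Units.inv_mul, vecMul_one]
  have hP' : g⁻¹ * PG F = PG F * g⁻¹ := by
    rw [inv_mul_eq_iff_eq_mul, ← mul_assoc, hP, mul_inv_cancel_right]
  refine ⟨fun z => a.w0 ?_, fun z => a.φ0 (by rw [← e, z, zero_vecMul]), ?_, ?_, ?_, a.t.conj hg e⟩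
  · rw [← one_mulVec w, ← g.inv_mul, ← mulVec_mulVec, z, mulVec_zero]
  · rw [mulVec_mulVec, ← Units.val_mul, ← hP, Units.val_mul, ← mulVec_mulVec, a.hw]
  · rw [vecMul_vecMul, ← Units.val_mul, hP', Units.val_mul, ← vecMul_vecMul, a.hφ]
  · rw [dotProduct_mulVec, e, a.e]

variable {p : ℕ} (hp : p.Prime) (hF : Fintype.card F = p) {ω : F} (h : Om ω)
  (hB : ∀ g ∈ N3 h, ∀ b ∈ B, g * b * g⁻¹ ∈ B)
include hp hF hB

omit hB in
theorem two_ne (h : Om ω) : (2 : F) ≠ 0 := fun e => by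
  haveI : CharP F p := haveI := Fact.mk hp; charP_of_card_eq_prime hF
  have h2 : p = 2 := (Nat.prime_dvd_prime_iff_eq hp Nat.prime_two).1
    ((CharP.cast_eq_zero_iff F p 2).1 (by exact_mod_cast e))
  have := FiniteField.pow_card ω
  rw [hF, h2] at this
  exact h.sq_ne this.symm

theorem step (a : Gd B w φ) (h0 : w 0 ≠ 0) (h1 : w 1 ≠ 0) : ∃ w' φ', Gd B w' φ' ∧ w' 1 = 0 := by
  have b := a.conj (hB _ ((mem_LL h).1 (t_LL h)).1) ((mem_LL h).1 (t_LL h)).2.1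
  have e : φ ᵥ* ((h.dG⁻¹ : 𝐆) : 𝐌) ᵥ* (h.dG : 𝐌) = φ := by
    rw [vecMul_vecMul, Units.inv_mul, vecMul_one]
  generalize φ ᵥ* ((h.dG⁻¹ : 𝐆) : 𝐌) = ψ at b e
  have hw := P_mulVec.1 a.hw
  have hψ := vecMul_P.1 b.hφ
  have n : ψ ⬝ᵥ w ≠ 0 := fun z => by
    have z' := b.e
    simp only [coe_dG, dotProduct, mulVec, Fin.sum_univ_three] at z z'
    simp at z'
    have p0 : ψ 0 = 0 := by
      have : (ω - 1) * w 0 * ψ 0 = 0 := by linear_combination z' - z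
      exact (mul_eq_zero.1 this).resolve_left (mul_ne_zero (sub_ne_zero.2 h.ne_one) h0)
    have p1 : ψ 1 = 0 := by
      have : 2 * w 1 * ψ 1 = 0 := by
        rw [p0, ← hw, ← hψ] at z
        linear_combination z
      exact (mul_eq_zero.1 this).resolve_left (mul_ne_zero (two_ne hp hF h) h1)
    refine b.φ0 (funext fun i => ?_)
    fin_cases i
    exacts [p0, p1, hψ ▸ p1]
  obtain ⟨g, hg, e1⟩ := b.t.smul hp hF b.e (-(ψ ⬝ᵥ w)⁻¹)
  refine ⟨_, _, a.conj (g := g) (fun b hb => mul_mem (mul_mem hg hb) (inv_mem hg)) (Units.ext ?_), ?_⟩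
  · rw [Units.val_mul, Units.val_mul, e1, add_mul, mul_add, one_mul, mul_one, vecMulVec_mul,
      mul_vecMulVec, b.hw, smul_vecMul, b.hφ]
  · rw [e1, add_mulVec, one_mulVec, vmv_mulVec, smul_dotProduct, smul_eq_mul, neg_mul,
      inv_mul_cancel₀ n]
    simp [coe_dG, mulVec, dotProduct, Fin.sum_univ_three]

theorem exists_zero (a : Gd B w φ) : ∃ w' φ', Gd B w' φ' ∧ w' 1 = 0 := by
  by_cases h1 : w 1 = 0
  · exact ⟨w, φ, a, h1⟩
  by_cases h0 : w 0 = 0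
  swap
  · exact step hp hF h hB a h0 h1
  have hw := P_mulVec.1 a.hw
  have t := inv_ne_zero h.theta_ne
  refine step hp hF h hB (a.conj (hB _ ((mem_LL h).1 (a_LL h)).1) ((mem_LL h).1 (a_LL h)).2.1)
    (fun z => mul_ne_zero t (mul_ne_zero (two_ne hp hF h) h1) ?_)
    fun z => mul_ne_zero t h1 ?_
  all_goals
    simp only [coe_h1, smul_mulVec, Pi.smul_apply, smul_eq_mul] at z
    simp only [mulVec, dotProduct, Fin.sum_univ_three, h0, ← hw] at z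
    simp only [of_apply, cons_val', cons_val_zero, cons_val_one, cons_val_two, cons_val_fin_one,
      Nat.succ_eq_add_one, Nat.reduceAdd, tail_cons, head_cons, head_fin_const] at z
  · linear_combination z
  · linear_combination -z + (ω - ω ^ 2)⁻¹ * w 1 * h.eq

theorem et_mem (a : Gd B w φ) (c : F) : et (show (0 : Fin 3) ≠ 1 by decide) c ∈ B := by
  obtain ⟨w, φ, a, h1⟩ := exists_zero hp hF h hB a
  have h2 : w 2 = 0 := P_mulVec.1 a.hw ▸ h1
  have hφ := vecMul_P.1 a.hφ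
  have h0 : w 0 ≠ 0 := fun z => a.w0 (funext fun i => by
    fin_cases i
    exacts [z, h1, h2])
  have p0 : φ 0 = 0 := by
    have := a.e
    simpa [dotProduct, Fin.sum_univ_three, h0, h1, h2] using this
  have p1 : φ 1 ≠ 0 := fun z => a.φ0 (funext fun i => by
    fin_cases i
    exacts [p0, z, hφ ▸ z])
  have b := a.t.conj (ψ := ![0, φ 1 * ω ^ 2, φ 1 * ω]) (hB _ (RS3_le_N3 h (x_RS3 h))) (by
    funext i
    fin_cases i <;> simp [coe_xG, vecMul, dotProduct, Fin.sum_univ_three, p0, ← hφ]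
    · linear_combination φ 1 * h.cube
    · linear_combination φ 1 * h.cube)
  rw [show ((h.xG : 𝐆) : 𝐌) *ᵥ w = w from funext fun i => by
    fin_cases i <;> simp [coe_xG, mulVec, dotProduct, Fin.sum_univ_three, h1, h2]] at b
  have n : w 0 * φ 1 * (1 - ω) ≠ 0 :=
    mul_ne_zero (mul_ne_zero h0 p1) (sub_ne_zero.2 h.ne_one.symm)
  obtain ⟨g, hg, e⟩ := (a.t.smul hp hF a.e (c / (w 0 * φ 1 * (1 - ω)))).add
    (by rw [smul_dotProduct, a.e, smul_zero])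
    (b.smul hp hF (by simp [dotProduct, Fin.sum_univ_three, h1, h2])
      (-ω ^ 2 * (c / (w 0 * φ 1 * (1 - ω)))))
  have e2 : c / (w 0 * φ 1 * (1 - ω)) * (w 0 * φ 1 * (1 - ω)) = c := div_mul_cancel₀ _ n
  generalize c / (w 0 * φ 1 * (1 - ω)) = d at e e2
  convert hg using 1
  refine Units.ext (funext₂ fun i j => ?_)
  rw [e, et_apply, Matrix.add_apply, one_apply, vecMulVec_apply]
  fin_cases i <;> fin_cases j <;> simp [h1, h2, p0, ← hφ]
  · linear_combination -e2 + w 0 * φ 1 * d * ω * h.cube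
  · exact Or.inr (by linear_combination (-d * φ 1) * h.cube)

end FinL

open FinL

theorem sl_of_tv {F : Type*} [Field F] [Fintype F] {p : ℕ} (hp : p.Prime)
    (hF : Fintype.card F = p) {ω : F} {h : Om ω} {M : Subgroup (GL I9 F)} (c : Cl h M)
    {w φ : Fin 3 → F} (e : φ ⬝ᵥ w = 0) (w0 : w ≠ 0) (φ0 : φ ≠ 0) (hw : w 1 = w 2)
    (hφ : φ 1 = φ 2) (ht : tv w φ e ∈ B0 M) : specialLinear I9 F ≤ M := by
  refine sl_le_of_et fun i j hij d => ?_
  have h1 := mem_B0.1 (et_mem hp hF h (fun _ hg _ hb => c.B0N hg hb)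
    ⟨w0, φ0, P_mulVec.2 hw, vecMul_P.2 hφ, e, _, ht, rfl⟩ d)
  obtain ⟨σ, h2, rfl, rfl⟩ := c.two_tr (show ((0, 0) : I9) ≠ (1, 0) by decide) hij
  convert mul_mem (mul_mem h2 h1) (inv_mem h2) using 1
  ext a b
  obtain ⟨⟨a, k⟩, rfl⟩ := σ.surjective a
  obtain ⟨⟨b, l⟩, rfl⟩ := σ.surjective b
  rw [conj_pm, et_apply, bd_apply]
  simp only [Equiv.Perm.coe_inv, Equiv.symm_apply_apply, EmbeddingLike.apply_eq_iff_eq, Prod.mk.injEq]
  by_cases h3 : k = l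
  · subst h3
    by_cases h4 : k = 0
    · subst h4
      simp [et_apply]
    · simp [h4, Ne.symm h4, one_apply]
  · rw [if_neg h3, if_neg fun z => h3 z.2, if_neg fun z => h3 (z.1.2.symm.trans z.2.2), add_zero]

end Cfsg.Agent.N9
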