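import Cfsg.Agent.N9.Defs
import Cfsg.Agent.C6.TvU
import Cfsg.Agent.H98.UFr5
import Cfsg.Agent.H98.ExtForm

/-! Overgroups of the normaliser of `3^(1+4)` in the unitary group: the final steps. -/

set_option autoImplicit false
set_option linter.unusedSectionVars false
set_option linter.unusedVariables false
set_option linter.unusedSimpArgs false

namespace Cfsg.Agent.N9

section Generic

open Module Cfsg.Agent.H27 Relation Cfsg.Agent.H84.CU Cfsg.Agent.C6

variable {F : Type*} {V : Type*} [Field F] [AddCommGroup V] [Module F V]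
variable {σ : F →+* F} {B : V →ₛₗ[σ] V →ₗ[F] F} {H : Subgroup (V ≃ₗ[F] V)}
variable [Finite F] [FiniteDimensional F V]

theorem as_of_iso (S : SkH B) (pf : ∀ a, σ a = a → PF a) (hH : H ≤ H27.Iso B) {v x0 : V}
    {φ : Dual F V} (hv : v ≠ 0) (hx0 : φ x0 = 1) (h0 : φ v = 0) (h : T1 H v φ) : AS B H v := by
  obtain ⟨g, hg, e1⟩ := h.exists
  have h2 : ∀ y, B v y = -(B x0 v + B v v) * φ y := fun y => by
    have := hH hg x0 y
    simp only [e1, hx0, map_add, map_smul, LinearMap.add_apply, one_smul, smul_eq_mul] at this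
    linear_combination this
  have h3 : B v v = 0 := by rw [h2, h0, mul_zero]
  have h4 : B v x0 = -B x0 v := by rw [h2, h3, hx0]; ring
  have h5 : B v x0 ≠ 0 := fun e => hv (S.nd v fun y => by
    rw [h2, h3, add_zero, ← h4, e, zero_mul])
  have h6 : σ (B v x0) = B v x0 := by linear_combination S.skew v x0 - h4
  refine ⟨h3, fun d hd => ?_⟩
  have := t1_nat h h0 (pf (d * B v x0) (by rw [map_mul, hd, h6]))
  convert this using 1
  ext y
  rw [LinearMap.smul_apply, LinearMap.smul_apply, h2 y, h3, add_zero, ← h4, smul_eq_mul,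
    smul_eq_mul, mul_assoc]

theorem gen_tvu (S : SkH B) (h2 : (2 : F) ≠ 0) (pf : ∀ a, σ a = a → PF a) (h1 : H ≤ H27.Iso B)
    {v : V} (b1 : v ≠ 0) (hv : AS B H v) {g : V ≃ₗ[F] V} (hg : g ∈ H) (m0 : B v (g v) ≠ 0)
    (m1 : B v (g (g v)) = B v (g v)) (m2 : B (g v) v + B v (g v) ≠ 0)
    (sp : ∀ X : Submodule F V, v ∈ X → (∀ k ∈ H, B v (k v) ≠ 0 → ∀ x ∈ X, k x ∈ X) → X = ⊤) :
    GG B ≤ H := by
  have cj : ∀ g ∈ H, ∀ x, AS B H x → AS B H (g x) := fun g hg x h => h.conj hg (h1 hg)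
  let E : V → V → Prop := fun x y => AS B H x ∧ AS B H y ∧ B x y ≠ 0
  have nrm : ∀ x, AS B H x → B v x ≠ 0 → AS B H ((B v x)⁻¹ • x) ∧ B v ((B v x)⁻¹ • x) = 1 :=
    fun x hx e => ⟨S.as_smul hx _, by simp [e]⟩
  obtain ⟨a, ha, e, b, hb, e', h0⟩ : ∃ a, AS B H a ∧ B v a = 1 ∧ ∃ b, AS B H b ∧ B v b = 1 ∧
      B (b - a) (b - a) ≠ 0 := by
    have h3 := cj g hg v hv
    have h4 := cj g hg _ h3
    refine ⟨_, (nrm _ h3 m0).1, (nrm _ h3 m0).2, _, (nrm _ h4 (m1 ▸ m0)).1,
      (nrm _ h4 (m1 ▸ m0)).2, fun h => m2 ?_⟩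
    have h6 := (map_ne_zero σ).2 m0
    simp only [map_sub, LinearMap.sub_apply, LinearMap.map_smulₛₗ, LinearMap.smul_apply,
      smul_eq_mul, h3.1, h4.1, map_inv₀, RingHom.id_apply, m1, h1 hg v (g v), h1 hg (g v) v] at h
    field_simp at h
    linear_combination -h
  have sm := fun {y} => ys_smul S h2 pf h1 hv ha e (ys_diff S h2 hv ha hb e e') h0 (y := y)
  let X : Submodule F V :=
    { carrier := {x | x - B v x • a ∈ YS S H hv.1}
      add_mem' := fun {x y} hx hy => by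
        have := (YS S H hv.1).add_mem hx hy
        change _ ∈ YS S H hv.1
        convert this using 1
        rw [map_add]; module
      zero_mem' := by simp
      smul_mem' := fun c x hx => by
        have := sm hx c
        change _ ∈ YS S H hv.1
        convert this using 1
        rw [map_smul, smul_eq_mul]; module }
  have x1 : ∀ x, AS B H x → B v x ≠ 0 → x ∈ X := fun x hx e1 => by
    have := sm (ys_diff S h2 hv ha (nrm x hx e1).1 e (nrm x hx e1).2) (B v x)
    rwa [smul_sub, smul_smul, mul_inv_cancel₀ e1, one_smul] at this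
  have x2 : ∀ x, ReflTransGen E v x → AS B H x ∧
      (B v x ≠ 0 ∨ ∃ a', AS B H a' ∧ B v a' ≠ 0 ∧ B a' x ≠ 0) := fun x hx => by
    induction hx with
    | refl => exact ⟨hv, Or.inr ⟨a, ha, by simp [e], by simp [S.one_symm e]⟩⟩
    | @tail x y _ o ih =>
      refine ⟨o.2.1, Or.inr ?_⟩
      by_cases e1 : B v x = 0
      swap
      · exact ⟨x, o.1, e1, o.2.2⟩
      obtain ⟨a', c1, c2, c3⟩ := ih.2.resolve_left (not_not.2 e1)
      by_cases e2 : B a' y = 0
      · exact ⟨_, S.as_move o.1 c1 (map_one σ), by simpa [e1], by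
          simpa [e2, o.2.2] using S.ne_symm c3⟩
      · exact ⟨a', c1, c2, e2⟩
  have x4 : ∀ x, ReflTransGen E v x → x ∈ X := fun x hx => by
    obtain ⟨c1, c2⟩ := x2 _ hx
    by_cases e1 : B v x = 0
    swap
    · exact x1 _ c1 e1
    obtain ⟨a', c3, c4, c5⟩ := c2.resolve_left (not_not.2 e1)
    have := X.sub_mem (x1 _ (S.as_move c1 c3 (map_one σ)) (by simpa [e1])) (x1 _ c3 c4)
    rwa [add_sub_cancel_left, one_mul, X.smul_mem_iff (S.ne_symm c5)] at this
  have x5 : ∀ k ∈ H, B v (k v) ≠ 0 → ∀ x, ReflTransGen E v x → ReflTransGen E v (k x) :=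
    fun k hk e1 x hx => by
    induction hx with
    | refl => exact .single ⟨hv, cj k hk v hv, e1⟩
    | @tail x y _ o ih =>
      exact ih.tail ⟨cj k hk _ o.1, cj k hk _ o.2.1, by rw [h1 hk x y]; exact o.2.2⟩
  have x3 : X = ⊤ := by
    have := sp (Submodule.span F {x | ReflTransGen E v x}) (Submodule.subset_span .refl)
      fun k hk e1 x hx => by
        have h5 : Submodule.span F {x | ReflTransGen E v x} ≤
            (Submodule.span F {x | ReflTransGen E v x}).comap (k : V →ₗ[F] V) :=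
          Submodule.span_le.2 fun y hy => Submodule.subset_span (x5 k hk e1 y hy)
        exact h5 hx
    rw [eq_top_iff, ← this]
    exact Submodule.span_le.2 x4
  have q1 := qs_of_es S h1 hv b1 fun y hy => by
    have : y ∈ X := x3 ▸ trivial
    change _ ∈ YS S H hv.1 at this
    rw [hy, zero_smul, sub_zero] at this
    exact this.2
  exact le_of_qs S h1 q1 (q1.conj hg (h1 hg)) m0

end Generic

open Cfsg Cfsg.Geo Cfsg.Agent.H99 Cfsg.Agent.H85.L3 Matrix

section Form

variable {F : Type*} [Field F] {n : Type} [Fintype n] [DecidableEq n]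

/-- the skew-Hermitian form attached to the standard Hermitian form -/
def fB (σ : F →+* F) (ζ : F) : (n → F) →ₛₗ[σ] (n → F) →ₗ[F] F :=
  LinearMap.mk₂'ₛₗ σ (RingHom.id F) (fun x y => ζ * ∑ i, σ (x i) * y i)
    (fun x x' y => by simp [add_mul, Finset.sum_add_distrib, mul_add])
    (fun c x y => by simp [Finset.mul_sum, mul_assoc, mul_left_comm])
    (fun x y y' => by simp [Finset.sum_add_distrib, mul_add])
    (fun c x y => by simp [Finset.mul_sum, mul_assoc, mul_left_comm])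

theorem fB_apply (σ : F →+* F) (ζ : F) (x y : n → F) :
    fB σ ζ x y = ζ * ∑ i, σ (x i) * y i := rfl

/-- unitary matrices -/
def Un (σ : F →+* F) (g : GL n F) : Prop :=
  ∀ x y : n → F, ∑ i, σ (((g : Matrix n n F) *ᵥ x) i) * ((g : Matrix n n F) *ᵥ y) i =
    ∑ i, σ (x i) * y i

theorem Un.iso {σ : F →+* F} {g : GL n F} (h : Un σ g) (ζ : F) :
    H27.toLE n F g ∈ H27.Iso (fB σ ζ) := fun x y => by
  rw [fB_apply, fB_apply, H27.toLE_apply, H27.toLE_apply, h]

theorem un_pm (σ : F →+* F) (π : Equiv.Perm n) : Un σ (pm F π) := fun x y => by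
  simp only [pm_mulVec]
  exact Equiv.sum_comp π⁻¹ fun i => σ (x i) * y i

variable [Fintype F] {q : ℕ} [Fact (Fintype.card F = q ^ 2)]

theorem un_iff {g : GL n F} : g ∈ H10.isoG (sumHerm n (H10.sig F q)) ↔ Un (H10.cj F q) g :=
  H10.mem_isoG.trans ⟨fun h x y => by simpa only [sumHerm, H10.sig_apply, mul_comm] using h y x,
    fun h x y => by simpa only [sumHerm, H10.sig_apply, mul_comm] using h y x⟩

theorem uf_fB (hn : Fintype.card n ≠ 3) {ζ : F} (h0 : ζ ≠ 0) (hζ : H10.cj F q ζ = -ζ) :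
    H98.UF (fB (n := n) (H10.cj F q) ζ) ζ q :=
  ⟨H98.uH_of (fun x y => by
      simp only [fB_apply, map_mul, map_sum, hζ, H10.cj_cj, neg_mul, neg_neg, mul_comm])
    (fun x h => funext fun i => by
      have := h (Pi.single i 1)
      simpa [fB_apply, Pi.single_apply, h0] using this)
    (fun h => hn (by simpa using h.1)), H98.qf_cj, h0, fun _ _ => rfl⟩

theorem le_of_GG {ζ : F} {M : Subgroup (GL n F)}
    (h : H27.GG (fB (H10.cj F q) ζ) ≤ M.map (H27.toLE n F).toMonoidHom) :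
    H10.isoG (sumHerm n (H10.sig F q)) ⊓ specialLinear n F ≤ M := fun g hg => by
  have := h (x := H27.toLE n F g) ⟨(un_iff.1 hg.1).iso ζ, by
    have := hg.2
    rwa [← H27.comap_SLV] at this⟩
  exact (Subgroup.mem_map_iff_mem (H27.toLE n F).injective).1 this

end Form

section Em

variable {F : Type*} [Field F] [Fintype F]

/-- the embedding `u ↦ u ⊗ e_k` -/
def em (k : Fin 3) : (Fin 3 → F) →ₗ[F] (I9 → F) where
  toFun u a := if a.2 = k then u a.1 else 0
  map_add' u v := by ext a; by_cases h : a.2 = k <;> simp [h]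
  map_smul' c u := by ext a; by_cases h : a.2 = k <;> simp [h]

theorem em_apply (k : Fin 3) (u : Fin 3 → F) (a : I9) :
    em k u a = if a.2 = k then u a.1 else 0 := rfl

theorem bd_mulVec (f : Fin 3 → GL (Fin 3) F) (x : I9 → F) (a : I9) :
    (((bd f : GL I9 F) : Matrix I9 I9 F) *ᵥ x) a =
      ((f a.2 : Matrix (Fin 3) (Fin 3) F) *ᵥ fun j => x (j, a.2)) a.1 := by
  simp [mulVec, dotProduct, bd_apply, Fintype.sum_prod_type]

theorem bd_em (f : Fin 3 → GL (Fin 3) F) (k : Fin 3) (u : Fin 3 → F) :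
    ((bd f : GL I9 F) : Matrix I9 I9 F) *ᵥ em k u =
      em k ((f k : Matrix (Fin 3) (Fin 3) F) *ᵥ u) := by
  ext ⟨i, l⟩
  rw [bd_mulVec]
  by_cases h : l = k
  · subst h; simp [em_apply]
  · simp [em_apply, h, mulVec, dotProduct]

theorem Un.k1 {σ : F →+* F} {g : GL (Fin 3) F} (h : Un σ g) : Un σ (k1 g) := fun x y => by
  simp only [k1_eq, bd_mulVec]
  rw [Fintype.sum_prod_type_right, Fintype.sum_prod_type_right]
  exact Finset.sum_congr rfl fun k _ => h _ _

theorem fB_em (σ : F →+* F) (ζ : F) (k : Fin 3) (u : Fin 3 → F) (y : I9 → F) :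
    fB σ ζ (em k u) y = ζ * ∑ i, σ (u i) * y (i, k) := by
  simp [fB_apply, em_apply, Fintype.sum_prod_type, apply_ite σ]

theorem sw_mulVec (x : I9 → F) (a : I9) :
    (((sw F : GL I9 F) : Matrix I9 I9 F) *ᵥ x) a = x (a.2, a.1) := pm_mulVec _ _ _

theorem un_x {ω : F} (h : Om ω) {σ : F →+* F} (hω : σ ω = ω ^ 2) : Un σ h.xG := fun x y => by
  change ∑ i, σ ((dM 1 ω (ω ^ 2) *ᵥ x) i) * (dM 1 ω (ω ^ 2) *ᵥ y) i = _
  simp [dM_mulVec, Fin.sum_univ_three, hω]
  linear_combination (σ (x 1) * y 1 + (ω ^ 3 + 1) * σ (x 2) * y 2) * h.cube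

theorem un_y (σ : F →+* F) : Un σ (yG F) := yG_eq (F := F) ▸ un_pm σ _

theorem eq_top_of {ω : F} (h : Om ω) {X : Submodule F (I9 → F)} {w : Fin 3 → F} (w0 : w ≠ 0)
    (hw : em 0 w ∈ X) (a : ∀ x ∈ X, ((k1 h.xG : GL I9 F) : Matrix I9 I9 F) *ᵥ x ∈ X)
    (b : ∀ x ∈ X, ((k1 (yG F) : GL I9 F) : Matrix I9 I9 F) *ᵥ x ∈ X)
    (c : ∀ x ∈ X, ((sw F : GL I9 F) : Matrix I9 I9 F) *ᵥ x ∈ X) : X = ⊤ := by
  have key : ∀ k (w : Fin 3 → F), w ≠ 0 → em k w ∈ X → ∀ u, em k u ∈ X := fun k w w0 hw u => by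
    have := (sub_of_diag (W := X.comap (em k)) h.ne_one.symm h.sq_ne_one.symm
      (fun v hv => by
        have := a _ hv
        rwa [k1_eq, bd_em] at this)
      (fun v hv => by
        have := b _ hv
        rwa [k1_eq, bd_em] at this)).resolve_left fun e => w0 (by
          have : w ∈ X.comap (em k) := hw
          rwa [e] at this)
    have h2 : u ∈ X.comap (em k) := this ▸ trivial
    exact h2
  have k2 : ∀ k u, em k u ∈ X := fun k => key k (Pi.single 0 1) (by simp) (by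
    convert c _ (key 0 w w0 hw (Pi.single k 1)) using 1
    ext ⟨i, l⟩
    by_cases h1 : i = 0 <;> by_cases h2 : l = k <;>
      simp [sw_mulVec, em_apply, Pi.single_apply, h1, h2])
  rw [eq_top_iff]
  intro x _
  convert X.sum_mem (t := Finset.univ) fun k _ => k2 k fun i => x (i, k) using 1
  ext ⟨i, l⟩
  simp [em_apply, Finset.sum_apply]

theorem dg_mem {M : Subgroup (GL I9 F)} {β : Fˣ} (hD : HD M β)
    (hβ : ∀ t : Fˣ, t ∈ Submonoid.powers β) {t : I9 → Fˣ} (ht : ∏ i, t i = 1) : dg t ∈ M := by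
  have e : t = ∏ i, (Pi.mulSingle i (t i) * Pi.mulSingle (0 : I9) (t i)⁻¹ : I9 → Fˣ) := by
    rw [Finset.prod_mul_distrib, Finset.univ_prod_mulSingle]
    ext j
    by_cases hj : j = 0
    · subst hj; simp [Finset.prod_apply, ht]
    · simp [Finset.prod_apply, Pi.mulSingle_eq_of_ne hj]
  rw [e]
  refine (M.comap dg).prod_mem fun i _ => ?_
  by_cases hi : i = 0
  · subst hi
    rw [← Pi.mulSingle_mul, mul_inv_cancel, Pi.mulSingle_one]
    exact one_mem _
  · obtain ⟨k, hk⟩ := hβ (t i)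
    have := (M.comap dg).pow_mem
      (x := Pi.mulSingle i β * Pi.mulSingle (0 : I9) β⁻¹) (hD i 0 hi) k
    rwa [mul_pow, ← Pi.mulSingle_pow, ← Pi.mulSingle_pow, inv_pow, show β ^ k = t i from hk] at this

end Em

theorem su_of_tv {F : Type*} [Field F] [Fintype F] {q : ℕ} [Fact (Fintype.card F = q ^ 2)]
    (hq : q.Prime) (h2 : (2 : F) ≠ 0) {ω : F} (h : Om ω) (hω : ω ^ q = ω ^ 2)
    {M : Subgroup (GL I9 F)} (c : Cl h M)
    (hU : M ≤ similarityGroup (sumHerm I9 (H10.sig F q))) {w φ : Fin 3 → F} (w0 : w ≠ 0)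
    (φ0 : φ ≠ 0) (hw : w 1 = w 2) (e : φ ⬝ᵥ w = 0) (ht : tv w φ e ∈ B0 M) :
    H10.isoG (sumHerm I9 (H10.sig F q)) ⊓ specialLinear I9 F ≤ M := by
  obtain ⟨ζ, z0, hζ⟩ := H10.exists_skew F q
  have U := uf_fB (n := I9) (by simp) z0 hζ
  have S := U.uh.toSkH
  have pf : ∀ a, H10.cj F q a = a → C6.PF a := fun a ha => by
    have := Fact.mk hq
    have : CharP F q := charP_of_card_eq_prime_pow (Fact.out : Fintype.card F = q ^ 2)
    obtain ⟨n, rfl⟩ := (mem_bot_iff_intCast q F).1 ((Subfield.mem_bot_iff_pow_eq_self F q).2 ha)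
    obtain ⟨m, rfl | rfl⟩ := n.eq_nat_or_neg
    · simpa using C6.PF.nat m
    · simpa using (C6.PF.nat m).neg
  refine le_of_GG (ζ := ζ) ?_
  replace hω : H10.cj F q ω = ω ^ 2 := hω
  have ut : Un (H10.cj F q) (bd (Pi.mulSingle 0 (tv w φ e))) := by
    obtain ⟨m, hm⟩ := hU (mem_B0.1 ht)
    have h1 := hm (em 1 (Pi.single 0 1)) (em 1 (Pi.single 0 1))
    rw [bd_em, Pi.mulSingle_eq_of_ne (by decide), Units.val_one, one_mulVec] at h1
    have h3 : sumHerm I9 (H10.sig F q) (em 1 (Pi.single 0 1)) (em 1 (Pi.single 0 1)) = 1 := by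
      simp [sumHerm, em_apply, Fintype.sum_prod_type, Pi.single_apply]
    rw [h3, mul_one] at h1
    exact un_iff.1 (H10.mem_isoG.2 fun u v => by rw [hm, ← h1, one_mul])
  have inv : ∀ a, H10.cj F q (H10.cj F q a) = a := S.inv
  generalize H10.cj F q = σ at *
  obtain ⟨H, hH⟩ : ∃ H, H = M.map (H27.toLE I9 F).toMonoidHom ⊓ H27.Iso (fB σ ζ) := ⟨_, rfl⟩
  have h1 : H ≤ H27.Iso (fB σ ζ) := hH ▸ inf_le_right
  refine le_trans ?_ (hH ▸ inf_le_left : H ≤ _)
  have mem : ∀ g ∈ M, Un σ g → H27.toLE I9 F g ∈ H := fun g hg hu =>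
    hH ▸ ⟨⟨g, hg, rfl⟩, hu.iso ζ⟩
  have hz := mem _ c.z (un_x h hω).k1
  have hx := mem _ c.x (un_y σ).k1
  have hs := mem _ c.sw (un_pm σ _)
  have b1 : em 0 w ≠ 0 := fun e1 => w0 (funext fun i => by simpa [em_apply] using congrFun e1 (i, 0))
  have hv : H27.AS (fB σ ζ) H (em 0 w) := by
    obtain ⟨j, hj⟩ := Function.ne_iff.1 φ0
    replace hj : φ j ≠ 0 := hj
    let Φ : Module.Dual F (I9 → F) :=
      { toFun := fun x => φ ⬝ᵥ fun i => x (i, 0)
        map_add' := fun x y => dotProduct_add _ _ _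
        map_smul' := fun c x => dotProduct_smul _ _ _ }
    have hΦ : ∀ x, Φ x = φ ⬝ᵥ fun i => x (i, 0) := fun _ => rfl
    refine as_of_iso S pf h1 (φ := Φ) (x0 := em 0 (Pi.single j (φ j)⁻¹)) b1 ?_ ?_
      ⟨_, mem _ (mem_B0.1 ht) ut, fun x => ?_⟩
    · simp [hΦ, em_apply, dotProduct, Pi.single_apply, hj]
    · simpa [hΦ, em_apply] using e
    · ext ⟨i, l⟩
      rw [H27.toLE_apply, bd_mulVec]
      by_cases hl : l = 0
      · subst hl
        simp [tv_mulVec, hΦ, em_apply]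
      · simp [Pi.mulSingle_eq_of_ne hl, em_apply, hl]
  have e0 := hv.1
  simp only [fB_em, em_apply, if_true, Fin.sum_univ_three, ← hw, mul_eq_zero, z0, false_or] at e0
  have y0 : w 1 ≠ 0 := fun e1 => w0 (by
    have : w 0 = 0 := by simpa [e1] using e0
    ext i; fin_cases i; exacts [this, e1, hw ▸ e1])
  have ny : σ (w 1) * w 1 ≠ 0 := mul_ne_zero ((map_ne_zero σ).2 y0) y0
  have x0 : w 0 ≠ 0 := fun e1 => mul_ne_zero h2 ny (by
    rw [e1, mul_zero] at e0; linear_combination e0)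
  have nx : σ (w 0) ≠ 0 := (map_ne_zero σ).2 x0
  have az : ∀ u, H27.toLE I9 F (k1 h.xG) (em 0 u) = em 0 ![u 0, ω * u 1, ω ^ 2 * u 2] := fun u => by
    rw [H27.toLE_apply, k1_eq, bd_em]
    congr 1
    exact (dM_mulVec 1 ω (ω ^ 2) u).trans (by rw [one_mul])
  have ax : ∀ u, H27.toLE I9 F (k1 (yG F)) (em 0 u) = em 0 ![u 2, u 0, u 1] := fun u => by
    rw [H27.toLE_apply, k1_eq, bd_em]
    congr 1
    exact yM_mulVec u
  have m0 : fB σ ζ (em 0 w) (H27.toLE I9 F (k1 h.xG) (em 0 w)) = -3 * ζ * (σ (w 1) * w 1) := by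
    simp [az, fB_em, em_apply, Fin.sum_univ_three, ← hw]
    linear_combination ζ * e0 + ζ * σ (w 1) * w 1 * h.eq
  have m3 : -3 * ζ * (σ (w 1) * w 1) ≠ 0 :=
    mul_ne_zero (mul_ne_zero (neg_ne_zero.2 h.three) z0) ny
  refine gen_tvu S h2 pf h1 b1 hv hz (m0 ▸ m3) ?_ ?_ fun X hX st => ?_
  · rw [m0]
    simp [az, fB_em, em_apply, Fin.sum_univ_three, ← hw]
    linear_combination ζ * e0 + ζ * σ (w 1) * w 1 * (h.eq + ω * h.cube)
  · rw [S.skew, m0]
    simp only [map_mul, map_neg, map_ofNat, hζ, inv]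
    intro e1
    exact mul_ne_zero h2 m3 (by linear_combination e1)
  have sz := st _ hz (m0 ▸ m3)
  refine eq_top_of h w0 hX sz ?_ (st _ hs ?_)
  · have z3 : ∀ x, H27.toLE I9 F (k1 h.xG) (H27.toLE I9 F (k1 h.xG) (H27.toLE I9 F (k1 h.xG) x)) =
        x := fun x => by
      ext ⟨i, l⟩
      simp only [H27.toLE_apply, k1_eq, bd_mulVec,
        show ((h.xG : GL (Fin 3) F) : Matrix (Fin 3) (Fin 3) F) = dM 1 ω (ω ^ 2) from rfl,
        dM_mulVec]
      fin_cases i <;> simp
      · linear_combination x (1, l) * h.cube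
      · linear_combination (ω ^ 3 + 1) * x (2, l) * h.cube
    by_contra hc
    have t0 := mt (st _ hx) hc
    have t1 := mt (st _ (H.mul_mem hz hx)) fun t => hc fun x hx => by
      have := sz _ (sz _ (t x hx))
      rwa [H27.le_mul_apply, z3] at this
    have t2 := mt (st _ (H.mul_mem hz (H.mul_mem hz hx))) fun t => hc fun x hx => by
      have := sz _ (t x hx)
      rwa [H27.le_mul_apply, H27.le_mul_apply, z3] at this
    simp [H27.le_mul_apply, az, ax, fB_em, em_apply, Fin.sum_univ_three, ← hw, z0] at t0 t1 t2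
    exact mul_ne_zero h.three (mul_ne_zero nx y0) (by
      linear_combination t0 + t1 + t2 - (σ (w 1) * w 0 + σ (w 1) * w 1) * h.eq -
        σ (w 1) * w 1 * ω * h.cube)
  · simp [H27.toLE_apply, sw_mulVec, fB_em, em_apply, Fin.sum_univ_three, z0, x0]

theorem su_two {F : Type*} [Field F] [Fintype F] [Fact (Fintype.card F = 2 ^ 2)]
    {ω : F} (h : Om ω) {M : Subgroup (GL I9 F)} (c : Cl h M) (hP : ∀ σ, pm F σ ∈ M) {β : Fˣ}
    (hβ : β ≠ 1) (hD : HD M β) :
    H10.isoG (sumHerm I9 (H10.sig F 2)) ⊓ specialLinear I9 F ≤ M := by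
  have Q : H98.QF (H10.cj F 2) 2 := H98.qf_cj
  have two : (2 : F) = 0 := Q.two
  have U := uf_fB (n := I9) (F := F) (q := 2) (ζ := 1) (by simp) one_ne_zero (by
    rw [map_one]; linear_combination two)
  refine le_of_GG (ζ := 1) ?_
  have hω : H10.cj F 2 ω = ω ^ 2 := rfl
  generalize H10.cj F 2 = σ at *
  have th : ω - ω ^ 2 = 1 := by linear_combination h.eq - (ω ^ 2 + 1) * two
  have ea : ((h.h1 : GL (Fin 3) F) : Matrix (Fin 3) (Fin 3) F) =
      !![1, 1, 1; 1, ω, ω ^ 2; 1, ω ^ 2, ω] := by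
    rw [Om.h1, coe_mk1, th, inv_one, one_smul]
  have ua : Un σ h.h1 := fun x y => by
    simp [ea, mulVec, dotProduct, Fin.sum_univ_three, hω]
    have := h.eq
    grind
  have hβ' : ∀ t : Fˣ, t ∈ Submonoid.powers β := fun t => by
    have := Fact.mk Nat.prime_three
    exact mem_powers_of_prime_card (p := 3) (by
      rw [Nat.card_units, Nat.card_eq_fintype_card, Q.cF]; rfl) hβ
  refine le_trans (U.GG_le_four (H := M.map (H27.toLE I9 F).toMonoidHom ⊓ H27.GG (fB σ 1))
    (fun g hg => ⟨?_, hg.2⟩) inf_le_right (by simp) (g := H27.toLE I9 F (k1 h.h1))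
    ⟨⟨_, c.a, rfl⟩, ua.k1.iso 1, ?_⟩ fun hg => ?_) inf_le_left
  · obtain ⟨g, rfl⟩ := (H27.toLE I9 F).surjective g
    obtain ⟨π, hπ⟩ := H98.exists_of_mem_FR hg.1
    choose t t0 ht using hπ
    have e : g = pm F π * dg fun i => Units.mk0 (t i) (t0 i) := by
      ext i j
      have := congrFun (ht j) i
      rw [H27.toLE_apply, H98.ee, mulVec_single_one] at this
      rw [Units.val_mul, pm_mul_apply, dg_apply]
      refine (show (g : Matrix I9 I9 F) i j = _ from this).trans ?_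
      by_cases hj : i = π j
      · subst hj; simp
      · rw [if_neg (by rintro rfl; simp at hj)]
        simp [H98.ee_apply, hj]
    have d : g ∈ specialLinear I9 F := by
      have := hg.2.2
      rwa [← H27.comap_SLV]
    refine ⟨g, e ▸ M.mul_mem (hP π) (dg_mem hD hβ' (Units.ext ?_)), rfl⟩
    rw [mem_sl, e, Units.val_mul, det_mul, coe_dg, det_diagonal] at d
    have d1 : ((pm F π : GL I9 F) : Matrix I9 I9 F).det = 1 := by
      change (π⁻¹.permMatrix F).det = 1
      rw [det_permutation]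
      rcases Int.units_eq_one_or (Equiv.Perm.sign π⁻¹) with e1 | e1 <;> rw [e1]
      · simp
      · simp only [Units.val_neg, Units.val_one, Int.cast_neg, Int.cast_one]
        linear_combination -two
    rw [d1, one_mul] at d
    simpa using d
  · have : k1 h.h1 ∈ specialLinear I9 F := by
      rw [mem_sl]
      change (blockDiagonal fun _ : Fin 3 => ((h.h1 : GL (Fin 3) F) : Matrix (Fin 3) (Fin 3) F)).det = 1
      rw [det_blockDiagonal]
      exact Finset.prod_eq_one fun _ _ => h.det_h1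
    rwa [← H27.comap_SLV] at this
  · obtain ⟨π, hπ⟩ := H98.exists_of_mem_FR hg
    obtain ⟨t, t0, ht⟩ := hπ (0, 0)
    have k : ∀ i : Fin 3, (i, 0) = π (0, 0) := fun i => by
      have := congrFun ht (i, 0)
      rw [H27.toLE_apply, H98.ee, mulVec_single_one] at this
      by_contra hc
      fin_cases i <;> simp [k1_apply, ea, H98.ee_apply] at this hc <;> simp [hc] at this
    exact absurd ((k 0).trans (k 1).symm) (by decide)

end Cfsg.Agent.N9
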