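import Cfsg.Agent.N9.Nrm
import Cfsg.Agent.N9.Abs

/-! The normaliser of `3^(1+4)` in `GL₉`: centralisers of Pauli matrices in an overgroup. -/

set_option autoImplicit false
set_option linter.unusedSectionVars false
set_option linter.unusedVariables false
set_option linter.unusedSimpArgs false

namespace Cfsg.Agent.N9

open Cfsg Cfsg.Geo Cfsg.Agent.H98 Cfsg.Agent.H99 Cfsg.Agent.H85.L3 Matrix

variable {F : Type*} [Field F] [Fintype F]

local notation "𝐆" => GL (Fin 3) F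
local notation "𝐇" => GL I9 F
local notation "𝐌" => Matrix (Fin 3) (Fin 3) F
local notation "𝐙" => scalars (Fin 3) F
local notation "𝐒" => scalars I9 F

theorem s3_word : ∀ σ : Equiv.Perm (Fin 3), ∃ (i : Fin 3) (j : Fin 2),
    σ = finRotate 3 ^ i.val * Equiv.swap 1 2 ^ j.val := by decide +kernel

theorem s3_two : ∀ i j i' j' : Fin 3, i ≠ j → i' ≠ j' →
    ∃ σ : Equiv.Perm (Fin 3), σ i = i' ∧ σ j = j' := by decide +kernel

theorem fin3_third : ∀ i j : Fin 3, i ≠ j → ∃ k, i ≠ k ∧ ∀ l, l ≠ i → l = j ∨ l = k := by decide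

theorem pm_dd {n : Type} [Fintype n] [DecidableEq n] (σ : Equiv.Perm n) (a b : n) (β : Fˣ) :
    pm F σ * dd a b β * (pm F σ)⁻¹ = dd (σ a) (σ b) β := by
  rw [dd, dd, pm_dg]
  congr 1
  funext i
  simp only [Pi.mul_apply, Pi.mulSingle_apply, Equiv.Perm.inv_eq_iff_eq]

theorem single_dg (k : Fin 3) (t : Fin 3 → Fˣ) : bd (Pi.mulSingle k (dg t : 𝐆)) =
    dg fun a : I9 => if a.2 = k then t a.1 else 1 := by
  rw [show Pi.mulSingle k (dg t : 𝐆) = fun l => dg fun i => if l = k then t i else 1 from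
    funext fun l => by
      rw [Pi.mulSingle_apply]
      split_ifs
      exacts [rfl, (map_one dg).symm], bd_dg]

theorem single_dd (k i j : Fin 3) (β : Fˣ) :
    bd (Pi.mulSingle k (dd i j β : 𝐆)) = dd (i, k) (j, k) β := by
  rw [dd, single_dg, dd]
  congr 1
  funext ⟨a, b⟩
  by_cases h : b = k <;> simp [Pi.mulSingle_apply, h]

theorem conj_comm_sc {n : Type} [Fintype n] [DecidableEq n] {g x l y : GL n F} {d : Fˣ}
    (e : g * x * g⁻¹ * x⁻¹ ∈ scalars n F) (hd : l * x * l⁻¹ = scal n d * y) :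
    l * g * l⁻¹ * y * (l * g * l⁻¹)⁻¹ * y⁻¹ ∈ scalars n F := by
  obtain rfl : y = scal n d⁻¹ * (l * x * l⁻¹) := by rw [hd, scal_inv, inv_mul_cancel_left]
  have := scalars_normal.conj_mem _ (scalars_normal.conj_mem _ e l) (scal n d⁻¹)
  rw [← mul_assoc _ (scal n _), ← scal_comm]
  convert this using 1
  group

theorem pm_N3 {ω : F} (h : Om ω) (σ : Equiv.Perm (Fin 3)) : pm F σ ∈ N3 h := by
  obtain ⟨i, j, rfl⟩ := s3_word σ
  rw [map_mul, map_pow, map_pow, ← yG_eq]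
  exact mul_mem (pow_mem (RS3_le_N3 h (y_RS3 h)) _) (pow_mem (P_N3 h) _)

theorem diag_of_comm {ω : F} (h : Om ω) {g : 𝐆} (e : g * h.xG = h.xG * g) : ∃ t, g = dg t := by
  have h1 : (g : 𝐌) = diagonal fun i => (g : 𝐌) i i := by
    ext k l
    rw [diagonal_apply]
    split_ifs with hkl
    · rw [hkl]
    · have := congrArg (fun x : 𝐆 => (x : 𝐌) k l) e
      simp only [xG_eq, Units.val_mul, coe_dg, mul_diagonal, diagonal_mul] at this
      rw [mul_comm, ← sub_eq_zero, ← sub_mul, mul_eq_zero, sub_eq_zero] at this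
      refine this.resolve_left fun e => hkl ?_
      have n1 := h.ne_one
      have n2 := h.sq_ne_one
      have n3 := h.sq_ne
      fin_cases k <;> fin_cases l <;> simp_all [wu, eq_comm]
  have h2 := g.det_ne_zero
  rw [h1, det_diagonal, Finset.prod_ne_zero_iff] at h2
  exact ⟨fun k => Units.mk0 _ (h2 k (Finset.mem_univ _)), Units.ext h1⟩

theorem B0_conj {M : Subgroup 𝐇} {f : Fin 3 → 𝐆} (hf : bd f ∈ M) {b : 𝐆} (hb : b ∈ B0 M) :
    f 0 * b * (f 0)⁻¹ ∈ B0 M := by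
  have := mul_mem (mul_mem hf (mem_B0.1 hb)) (inv_mem hf)
  rw [← map_inv, ← map_mul, ← map_mul] at this
  rw [mem_B0]
  convert this using 2
  funext k
  by_cases e : k = 0 <;> simp [e]

namespace Cl

variable {ω : F} {h : Om ω} {M : Subgroup (GL I9 F)} (c : Cl h M)
include c

theorem perm (σ : Equiv.Perm (Fin 3)) {f : Fin 3 → 𝐆} (hf : bd f ∈ M) :
    bd (fun k => f (σ k)) ∈ M := by
  have h1 := c.k2N (pm_N3 h σ⁻¹)
  have := mul_mem (mul_mem h1 hf) (inv_mem h1)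
  rwa [k2_pm_bd, inv_inv] at this

theorem single (k : Fin 3) {g : 𝐆} : bd (Pi.mulSingle k g) ∈ M ↔ g ∈ B0 M := by
  have e : ∀ k l : Fin 3, (fun j => (Pi.mulSingle k g : Fin 3 → 𝐆) (Equiv.swap k l j)) =
      Pi.mulSingle l g := fun k l => funext fun j => by
    simp only [Pi.mulSingle_apply, Equiv.swap_apply_eq_iff, Equiv.swap_apply_left]
  exact ⟨fun a => mem_B0.2 (e k 0 ▸ c.perm _ a), fun a => e 0 k ▸ c.perm _ (mem_B0.1 a)⟩

theorem B0N {g b : 𝐆} (hg : g ∈ N3 h) (hb : b ∈ B0 M) : g * b * g⁻¹ ∈ B0 M :=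
  B0_conj (f := fun _ => g) (c.k1N hg) hb

theorem comm_B0 {f g : Fin 3 → 𝐆} (hf : bd f ∈ M) (hg : bd g ∈ M) (i : Fin 3)
    (e : ∀ l, l ≠ i → f l * g l = g l * f l) : f i * g i * (f i)⁻¹ * (g i)⁻¹ ∈ B0 M := by
  have := mul_mem (mul_mem (mul_mem hf hg) (inv_mem hf)) (inv_mem hg)
  rw [← map_inv, ← map_inv, ← map_mul, ← map_mul, ← map_mul] at this
  rw [← c.single i]
  convert this using 2
  funext k
  by_cases e1 : k = i
  · simp [e1]
  · simp [e1, e k e1]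

omit c in
theorem pattern {y : 𝐆} (c : Cl h M) (hy : bd (fun k : Fin 3 => y ^ k.val) ∈ M) {i j : Fin 3}
    (e : i ≠ j) : ∃ u, bd u ∈ M ∧ u i = y ∧ u j = 1 := by
  obtain ⟨σ, h1, h2⟩ := s3_two i j 1 0 e (by decide)
  exact ⟨_, c.perm σ hy, by simp [h1], by simp [h2]⟩

section

variable (hB : B0 M ≤ scalars (Fin 3) F)
include hB

theorem loc_RS {f : Fin 3 → 𝐆} (hf : bd f ∈ M) {i j : Fin 3} (e : i ≠ j) (h1 : f j = 1) :
    f i ∈ RS3 h := by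
  obtain ⟨k, h2, h3⟩ := fin3_third i j e
  have k : ∀ {y : 𝐆}, bd (fun k : Fin 3 => y ^ k.val) ∈ M → f i * y * (f i)⁻¹ * y⁻¹ ∈ 𝐙 :=
    fun {y} hy => by
      obtain ⟨u, a1, rfl, a3⟩ := c.pattern hy h2
      refine hB (c.comm_B0 hf a1 i fun l hl => ?_)
      rcases h3 l hl with rfl | rfl
      · simp [h1]
      · simp [a3]
  exact RS3_of_comm h (k c.cz) (k c.cx)

theorem loc_N3 {f : Fin 3 → 𝐆} (hf : bd f ∈ M) : f 0 ∈ N3 h := by
  have k : ∀ {y : 𝐆}, bd (fun k : Fin 3 => y ^ k.val) ∈ M → f 0 * y * (f 0)⁻¹ ∈ RS3 h :=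
    fun {y} hy => by
      obtain ⟨u, a1, rfl, a3⟩ := c.pattern hy (show (0 : Fin 3) ≠ 1 by decide)
      have := mul_mem (mul_mem hf a1) (inv_mem hf)
      rw [← map_inv, ← map_mul, ← map_mul] at this
      exact c.loc_RS hB this (show (0 : Fin 3) ≠ 1 by decide) (by simp [a3])
  exact mem_N3_of h (k c.cz) (k c.cx)

theorem loc_sc {f : Fin 3 → 𝐆} (h4 : bd f ∈ M) (h5 : f 0 = 1) {e : Fˣ} (h6 : f 1 = scal _ e) :
    bd f ∈ NN h := by
  have h7 := c.comm_B0 (g := fun _ => PG F) h4 (c.k1N (P_N3 h)) 2 fun l hl => by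
    rcases (by decide : ∀ l : Fin 3, l ≠ 2 → l = 0 ∨ l = 1) l hl with rfl | rfl
    · rw [h5, one_mul, mul_one]
    · rw [h6, scal_comm]
  obtain ⟨e', h7⟩ := mem_scalars_iff'.1 (sc_of_comm_P h
    (c.loc_RS hB h4 (show (2 : Fin 3) ≠ 0 by decide) h5) (hB h7))
  have h8 : bd f = N9.k2 (dg ![1, e, e']) := by
    rw [k2_dg]
    refine congrArg bd (funext fun k => ?_)
    rcases (by decide : ∀ l : Fin 3, l = 0 ∨ l = 1 ∨ l = 2) k with rfl | rfl | rfl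
    exacts [h5.trans scal_one.symm, h6, h7]
  rw [h8] at h4 ⊢
  have h9 := mul_mem (mul_mem c.sw h4) (inv_mem c.sw)
  rw [sw_k2] at h9
  exact (cl_NN' h).k2N (c.loc_N3 hB (f := fun _ => dg ![1, e, e']) h9)

theorem loc_NN {f : Fin 3 → 𝐆} (hf : bd f ∈ M) : bd f ∈ NN h := by
  have d := cl_NN' h
  have h0 := c.loc_N3 hB hf
  have h1 : bd ((fun _ => f 0)⁻¹ * f) ∈ M := by
    rw [map_mul, map_inv]; exact mul_mem (inv_mem (c.k1N h0)) hf
  rw [← mul_inv_cancel_left (fun _ => f 0) f, map_mul]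
  refine mul_mem (d.k1N h0) ?_
  have h2 : ((fun _ => f 0)⁻¹ * f : Fin 3 → 𝐆) 0 = 1 := by simp
  generalize ((fun _ => f 0)⁻¹ * f : Fin 3 → 𝐆) = f at h1 h2
  obtain ⟨v, hv⟩ := c.loc_RS hB h1 (show (1 : Fin 3) ≠ 0 by decide) h2
  obtain ⟨e, he⟩ := eq_of_ty' h hv
  obtain ⟨u, hu⟩ : ∃ u : Fin 3 → 𝐆, u = (fun k : Fin 3 => h.xG ^ k.val) ^ v.1.val *
    (fun k : Fin 3 => yG F ^ k.val) ^ v.2.val := ⟨_, rfl⟩
  have h3 : ∀ {X : Subgroup 𝐇}, Cl h X → bd u ∈ X := fun c => by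
    rw [hu, map_mul, map_pow, map_pow]; exact mul_mem (pow_mem c.cz _) (pow_mem c.cx _)
  rw [← inv_mul_cancel_right f u, map_mul]
  exact mul_mem (c.loc_sc hB (e := e)
    (by rw [map_mul, map_inv]; exact mul_mem h1 (inv_mem (h3 c))) (by simp [h2, hu])
    (by simp [he, hu, mul_assoc])) (h3 d)

theorem ti_of : TI h M := fun x hx h1 g hg e => by
  obtain ⟨n, hn, d, hd⟩ := c.inf.tr hx h1
  have h2 := conj_comm_sc e hd
  obtain ⟨j, hj⟩ := exists_comm_z2 h h2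
  obtain ⟨f, hf⟩ := exists_bd h hj
  have h3 : N9.k2 (yG F)⁻¹ ^ j ∈ RS9 h := pow_mem (k2_RS9 h (inv_mem (y_RS3 h))) j
  have h4 := c.loc_NN hB
    (hf ▸ mul_mem (mul_mem (mul_mem hn.1 hg) (inv_mem hn.1)) (c.RS h3) : bd f ∈ M)
  rw [← hf, Subgroup.mul_mem_cancel_right _ (RS9_le_NN h h3),
    Subgroup.mul_mem_cancel_right _ (inv_mem hn.2), Subgroup.mul_mem_cancel_left _ hn.2] at h4
  exact h4

end

theorem hd_of_dd {a b : I9} (e : a ≠ b) {β : Fˣ} (h1 : dd a b β ∈ M) : HD M β := fun a' b' e' => by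
  obtain ⟨σ, h2, rfl, rfl⟩ := c.two_tr e e'
  rw [← pm_dd]
  exact mul_mem (mul_mem h2 h1) (inv_mem h2)

theorem hd_of_dg {t : Fin 3 → Fˣ} (ht : dg t ∈ B0 M) {i j : Fin 3} (e : t i ≠ t j) :
    ∃ β, β ≠ 1 ∧ HD M β := by
  have hij : i ≠ j := fun e' => e (e' ▸ rfl)
  have h1 := mul_mem ht (inv_mem (c.B0N (pm_N3 h (Equiv.swap i j)) ht))
  rw [pm_dg, ← map_inv, ← map_mul] at h1
  refine ⟨t i * (t j)⁻¹, by rwa [Ne, mul_inv_eq_one], c.hd_of_dd (a := (i, 0)) (b := (j, 0))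
    (by simpa using hij) ?_⟩
  rw [← single_dd, ← mem_B0, dd]
  convert h1 using 2
  funext k
  by_cases h2 : k = i
  · simp [h2, hij]
  by_cases h3 : k = j
  · simp [h3, hij.symm]
  · simp [h2, h3, Equiv.swap_apply_of_ne_of_ne]

theorem hd_of (hB : ¬ B0 M ≤ 𝐙) : ∃ β, β ≠ 1 ∧ HD M β := by
  obtain ⟨r, hr, h1, b, hb, h2, h3⟩ : ∃ r ∈ RS3 h, r ∉ 𝐙 ∧ ∃ b ∈ B0 M,
      b * r * b⁻¹ * r⁻¹ ∈ 𝐙 ∧ b ∉ 𝐙 := by
    by_contra hc
    push Not at hc
    refine hB (le_trans (gen9 𝐙 (B0 M) ⊥ h.xG (yG F) (by rw [xG_cube]; exact one_mem _)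
      (by rw [yG_cube]; exact one_mem _) (comm_RS3 h (x_RS3 h) (y_RS3 h)) (indep_xy h)
      (fun b => c.B0N (RS3_le_N3 h (x_RS3 h))) (fun b => c.B0N (RS3_le_N3 h (y_RS3 h))) bot_le
      (fun i j e b hb e' => ?_) (by simp) (by simp) (Or.inl rfl)) (bot_sup_eq _).le)
    rw [bot_sup_eq]
    exact hc _ ⟨_, ty_xy h i j⟩ e b hb e'
  obtain ⟨l, hl, d, hd⟩ := exists_conj_x h hr h1
  have h4 := c.B0N ((mem_LL h).1 hl).1 hb
  have h5 : l * b * l⁻¹ ∉ 𝐙 := by rwa [conj_mem_Z_iff]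
  have h6 := conj_comm_sc h2 hd
  generalize l * b * l⁻¹ = b at h4 h5 h6
  obtain ⟨e, e3, he⟩ := comm_cube (xG_cube h) h6
  obtain ⟨j, hj⟩ := exists_wu h e3
  obtain ⟨t, ht⟩ := diag_of_comm h (adj_comm he (y_x h) hj)
  rw [inv_pow, mul_inv_eq_iff_eq_mul, yG_eq, ← map_pow] at ht
  have h7 : ∀ j : ℕ, finRotate 3 ^ j = 1 ∨ (finRotate 3 ^ j)⁻¹ 0 ≠ 0 := fun j => by
    rw [← Nat.div_add_mod j 3, pow_add, pow_mul, show finRotate 3 ^ 3 = 1 by decide, one_pow,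
      one_mul]
    have : j % 3 < 3 := Nat.mod_lt _ (by norm_num)
    interval_cases j % 3 <;> decide
  rcases h7 j with h7 | h7
  · rw [h7, map_one, mul_one] at ht
    subst ht
    by_contra hc
    refine h5 ?_
    have : t = fun _ => t 0 := funext fun k => by_contra fun e => hc (c.hd_of_dg h4 e)
    rw [this, dg_const]
    exact scal_mem _
  generalize finRotate 3 ^ j = σ at ht h7
  have h8 := mul_mem (c.B0N (mem_N3 h h.act_d) h4) (inv_mem h4)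
  have h9 : h.dG * b * h.dG⁻¹ * b⁻¹ =
      dg (Pi.mulSingle 0 (wu h) * fun i => (Pi.mulSingle 0 (wu h) : Fin 3 → Fˣ)⁻¹ (σ⁻¹ i)) := by
    rw [map_mul, ← pm_dg, map_inv, ← dG_eq, ht, _root_.mul_inv_rev]
    have : pm F σ * h.dG⁻¹ * (pm F σ)⁻¹ * (dg t)⁻¹ = (dg t)⁻¹ * (pm F σ * h.dG⁻¹ * (pm F σ)⁻¹) := by
      rw [dG_eq, ← map_inv dg, pm_dg, ← map_inv dg, ← map_mul, ← map_mul, mul_comm]
    calc _ = h.dG * (dg t * (pm F σ * h.dG⁻¹ * (pm F σ)⁻¹ * (dg t)⁻¹)) := by group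
      _ = _ := by rw [this, mul_inv_cancel_left]
  rw [h9] at h8
  have h10 : σ 0 ≠ 0 := fun e => h7 (by rw [Equiv.Perm.inv_eq_iff_eq, e])
  refine c.hd_of_dg h8 (i := 0) (j := σ 0) fun e => h.sq_ne_one ?_
  simp only [Pi.mul_apply, Pi.inv_apply, Pi.mulSingle_apply, h7, h10, if_true, if_false, inv_one,
    mul_one, one_mul, show σ⁻¹ (σ 0) = 0 by simp] at e
  have := congrArg Units.val (eq_inv_iff_mul_eq_one.1 e)
  simpa [wu, sq] using this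

end Cl

end Cfsg.Agent.N9
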