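import Cfsg.Agent.N9.Loc

/-! The normaliser of `3^(1+4)` in `GL₉`: the centraliser of the parity operator. -/

set_option autoImplicit false
set_option linter.unusedSectionVars false
set_option linter.unusedVariables false
set_option linter.unusedSimpArgs false

namespace Cfsg.Agent.N9

open Cfsg Cfsg.Geo Cfsg.Agent.H98 Cfsg.Agent.H99 Cfsg.Agent.H85.L3 Matrix

variable {F : Type*} [Field F] [Fintype F]

local notation "𝐆" => GL (Fin 3) F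
local notation "𝐇" => GL I9 F
local notation "𝐌" => Matrix (Fin 3) (Fin 3) F
local notation "𝐍" => Matrix I9 I9 F
local notation "𝐙" => scalars (Fin 3) F
local notation "𝐒" => scalars I9 F

variable (F) in
/-- the coordinates `(i, k)` -/
def KA (i : Fin 3) : Matrix (Fin 3) I9 F := Matrix.of fun k a => if a = (i, k) then 1 else 0

theorem KA_mul {m : Type} (i : Fin 3) (A : Matrix I9 m F) (k : Fin 3) (b : m) :
    (KA F i * A) k b = A (i, k) b := by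
  simp [KA, Matrix.mul_apply]

theorem mul_KAt {m : Type} (i : Fin 3) (A : Matrix m I9 F) (k : Fin 3) (b : m) :
    (A * (KA F i)ᵀ) b k = A b (i, k) := by
  simp [KA, Matrix.mul_apply]

theorem JA_mul {m : Type} (A : Matrix (Fin 3) m F) (a : I9) (b : m) :
    (JA F * A) a b = vA F a.1 * A a.2 b := by
  simp [JA, Matrix.mul_apply]

theorem KA_JA : KA F 1 * JA F = 1 := by
  ext i j
  simp [KA_mul, JA, vA, one_apply]

theorem JA_eq : JA F = (1 - ((k1 (PG F) : 𝐇) : 𝐍)) * (KA F 1)ᵀ := by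
  ext ⟨i, k⟩ j
  rw [mul_KAt, Matrix.sub_apply, k1_apply, coe_PG]
  by_cases e : k = j <;> fin_cases i <;> simp [JA, vA, one_apply, e]

theorem JA_KA : JA F * (KA F 1 * (1 - ((k1 (PG F) : 𝐇) : 𝐍))) = 1 - ((k1 (PG F) : 𝐇) : 𝐍) := by
  ext ⟨i, k⟩ ⟨j, l⟩
  rw [JA_mul, KA_mul, Matrix.sub_apply, Matrix.sub_apply, k1_apply, k1_apply, coe_PG]
  by_cases e : k = l <;> fin_cases i <;> fin_cases j <;> simp [vA, one_apply, e]

theorem exists_onA {g : 𝐇} (e : g * k1 (PG F) = k1 (PG F) * g) : ∃ u, On (JA F) g u := by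
  refine exists_on KA_JA ?_
  have h1 : (g : 𝐍) * JA F = (1 - ((k1 (PG F) : 𝐇) : 𝐍)) * ((g : 𝐍) * (KA F 1)ᵀ) := by
    rw [JA_eq, ← Matrix.mul_assoc, ← Matrix.mul_assoc, mul_sub, sub_mul, ← Units.val_mul,
      ← Units.val_mul, e, mul_one, one_mul]
  rw [h1, ← Matrix.mul_assoc (KA F 1), ← Matrix.mul_assoc, JA_KA]

theorem on_k2 (u : 𝐆) : On (JA F) (k2 u) u := by
  ext ⟨i, k⟩ j
  rw [JA_mul]
  simp [Matrix.mul_apply, k2_apply, JA, Fintype.sum_prod_type, mul_comm]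

theorem k1_JA (l : 𝐆) (a : I9) (j : Fin 3) :
    (((k1 l : 𝐇) : 𝐍) * JA F) a j = if a.2 = j then ((l : 𝐌) *ᵥ vA F) a.1 else 0 := by
  by_cases e : a.2 = j <;>
    simp [Matrix.mul_apply, k1_apply, JA, Fintype.sum_prod_type, mulVec, dotProduct, e]

theorem on_k1 {l : 𝐆} : On (JA F) (k1 l) 1 ↔ (l : 𝐌) *ᵥ vA F = vA F := by
  rw [On, Units.val_one, Matrix.mul_one]
  constructor
  · intro e
    funext i
    have := congrFun (congrFun e (i, 0)) 0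
    rw [k1_JA] at this
    simpa [JA] using this
  · intro e
    ext a j
    rw [k1_JA, e]; rfl

theorem eq_one_of_on {g : 𝐇} (hg : g ∈ 𝐒) (e : On (JA F) g 1) : g = 1 := by
  obtain ⟨c, rfl⟩ := mem_scalars_iff'.1 hg
  rw [← k1_scal, (On.scal c).unique KA_JA e, map_one]

/-- the elements of `M` commuting with the parity operator and trivial on `(e₁ - e₂) ⊗ F³` -/
def K0 (M : Subgroup 𝐇) : Subgroup 𝐇 where
  carrier := {g | g ∈ M ∧ g * k1 (PG F) = k1 (PG F) * g ∧ On (JA F) g 1}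
  one_mem' := ⟨one_mem _, by simp, On.one⟩
  mul_mem' := fun ⟨a, b, c⟩ ⟨a', b', c'⟩ =>
    ⟨mul_mem a a', Commute.mul_left b b', by simpa using c.mul c'⟩
  inv_mem' := fun ⟨a, b, c⟩ => ⟨inv_mem a, Commute.inv_left b, by simpa using c.inv⟩

theorem K0_conj {M : Subgroup 𝐇} {g b : 𝐇} (hg : g ∈ M) (e : g * k1 (PG F) = k1 (PG F) * g)
    (hb : b ∈ K0 M) : g * b * g⁻¹ ∈ K0 M := by
  obtain ⟨u, hu⟩ := exists_onA e
  exact ⟨mul_mem (mul_mem hg hb.1) (inv_mem hg),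
    Commute.mul_left (Commute.mul_left e hb.2.1) (Commute.inv_left e),
    by simpa using (hu.mul hb.2.2).mul hu.inv⟩

theorem trace_k1 (g : 𝐆) : ((k1 g : 𝐇) : 𝐍).trace = 3 * (g : 𝐌).trace := by
  simp [trace, k1_apply, Fintype.sum_prod_type, Finset.mul_sum]

section

variable {ω : F} (h : Om ω)
include h

theorem not_inv_t (g : 𝐇) : g * k1 h.dG * g⁻¹ ≠ k1 h.dG⁻¹ := fun e => by
  have := congrArg (fun x : 𝐇 => (x : 𝐍).trace) e
  simp only [Units.val_mul, trace_units_conj] at this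
  rw [trace_k1, trace_k1, h.d_inv, Units.val_mul, coe_dG] at this
  simp [trace_fin_three, h.three] at this
  exact h.sq_ne (by rw [sq]; exact this)

theorem comm_P_iff {g : 𝐇} : g * k1 (h.h1 * h.h1) = k1 (h.h1 * h.h1) * g ↔
    g * k1 (PG F) = k1 (PG F) * g := by
  rw [aa_eq, map_mul, k1_scal, ← mul_assoc, ← scal_comm, mul_assoc, mul_assoc, mul_right_inj]

theorem RS3_of_k1 {x : 𝐆} (hx : k1 x ∈ RS9 h) : x ∈ RS3 h := by
  obtain ⟨r, hr, s, hs, e⟩ := hx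
  have := (k1_k2_sc (g := r⁻¹ * x) (g' := s⁻¹) (by
    rw [map_mul, e, map_inv, map_inv, inv_mul_cancel_left, mul_inv_cancel]; exact one_mem _)).1
  simpa using mul_mem hr (sc_RS3 h this)

theorem NN_k2 {g : 𝐇} (hg : g ∈ NN h) (e : g * k1 (PG F) = k1 (PG F) * g) {u : 𝐆}
    (hu : On (JA F) g u) {r : 𝐆} (hr : r ∈ RS3 h) :
    g * k2 r * g⁻¹ = k2 (u * r * u⁻¹) ∧ u * r * u⁻¹ ∈ RS3 h := by
  obtain ⟨s, hs, h1⟩ := k2_of_comm_P h (NN_conj h hg (k2_RS9 h hr))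
    (Commute.mul_left (Commute.mul_left e (k1_k2 _ _).symm) (Commute.inv_left e))
  rw [((hu.mul (on_k2 r)).mul hu.inv).unique KA_JA (h1 ▸ on_k2 s)]
  exact ⟨h1, hs⟩

theorem NN_N3 {g : 𝐇} (hg : g ∈ NN h) (e : g * k1 (PG F) = k1 (PG F) * g) {u : 𝐆}
    (hu : On (JA F) g u) : u ∈ N3 h :=
  mem_N3_of h (NN_k2 h hg e hu (x_RS3 h)).2 (NN_k2 h hg e hu (y_RS3 h)).2

theorem NN_LL {g : 𝐇} (hg : g ∈ NN h) (e : g * k1 (PG F) = k1 (PG F) * g)
    (hu : On (JA F) g 1) : ∃ l ∈ LL h, g = k1 l := by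
  have k : ∀ {r : 𝐆}, r ∈ RS3 h → g * k2 r = k2 r * g := fun hr => by
    simpa [mul_inv_eq_iff_eq_mul] using (NN_k2 h hg e hu hr).1
  obtain ⟨b, rfl⟩ := exists_k1 h (k (x_RS3 h)) (k (y_RS3 h))
  refine ⟨b, (mem_LL h).2 ⟨mem_N3_of h (RS3_of_k1 h ?_) (RS3_of_k1 h ?_), k1_injective ?_,
    on_k1.1 hu⟩, rfl⟩
  · simpa using NN_conj h hg (k1_RS9 h (x_RS3 h))
  · simpa using NN_conj h hg (k1_RS9 h (y_RS3 h))
  · simpa using e

theorem comm_LL {u : 𝐇} {φ : 𝐆 →* 𝐇} (e1 : u * φ h.h1 = φ h.h1 * u) (e2 : u * φ h.dG = φ h.dG * u)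
    {l : 𝐆} (hl : l ∈ LL h) : u * φ l = φ l * u :=
  (Subgroup.mem_centralizer_singleton_iff.1 (LL_le h (X := (Subgroup.centralizer {u}).comap φ)
    (Subgroup.mem_centralizer_singleton_iff.2 e1.symm)
    (Subgroup.mem_centralizer_singleton_iff.2 e2.symm) hl)).symm

end

namespace Cl

variable {ω : F} {h : Om ω} {M : Subgroup (GL I9 F)} (c : Cl h M)
include c

theorem LL_K0 {l : 𝐆} (hl : l ∈ LL h) : k1 l ∈ K0 M :=
  ⟨c.k1L hl, by rw [← map_mul, ((mem_LL h).1 hl).2.1, map_mul], on_k1.2 ((mem_LL h).1 hl).2.2⟩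

variable (ti : TI h M)
include ti

theorem K0_LL {g : 𝐇} (hg : g ∈ K0 M) : ∃ l ∈ LL h, g = k1 l := by
  have n : ∀ {r : 𝐆}, r ∈ RS3 h → ∀ b ∈ K0 M, N9.k2 r * b * (N9.k2 r)⁻¹ ∈ K0 M := fun hr b =>
    K0_conj (c.RS (k2_RS9 h hr)) (k1_k2 _ _).symm
  have h1 := gen9 𝐒 (K0 M) ((LL h).map k1) (N9.k2 h.xG) (N9.k2 (yG F))
    (cube_RS9 h (k2_RS9 h (x_RS3 h))) (cube_RS9 h (k2_RS9 h (y_RS3 h)))
    (comm_RS9 h (k2_RS9 h (x_RS3 h)) (k2_RS9 h (y_RS3 h)))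
    (fun i j e => indep_xy h i j (k2_mem_sc.1 (by simpa using e))) (n (x_RS3 h)) (n (y_RS3 h))
    (by rintro _ ⟨l, hl, rfl⟩; exact c.LL_K0 hl) (fun i j e b hb e' => ?_)
    (by rintro _ ⟨l, hl, rfl⟩; exact ⟨k1_k2 _ _, k1_k2 _ _⟩)
    (by rw [Subgroup.card_map_of_injective k1_injective]; exact card_LL h)
    (Or.inr ⟨k1 h.dG, ⟨_, t_LL h, rfl⟩, by rw [← map_pow, dG_cube, map_one], fun e => ?_,
      fun b hb e => ?_⟩) hg
  · obtain ⟨_, ⟨l, hl, rfl⟩, d, rfl⟩ := mem_sup_scalars.1 h1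
    have := ((On.scal d).mul (c.LL_K0 hl).2.2).unique KA_JA hg.2.2
    rw [mul_one] at this
    exact ⟨l, hl, by rw [← k1_scal, this, map_one, one_mul]⟩
  · obtain ⟨l, hl, rfl⟩ := NN_LL h (ti _ (mul_mem (pow_mem (k2_RS9 h (x_RS3 h)) i)
      (pow_mem (k2_RS9 h (y_RS3 h)) j)) e b hb.1 e') hb.2.1 hb.2.2
    exact Subgroup.mem_sup_left ⟨l, hl, rfl⟩
  · have := eq_one_of_on e (c.LL_K0 (t_LL h)).2.2
    exact not_inv_t h 1 (by rw [map_inv, this]; simp)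
  · have := eq_one_of_on e (mul_mem (K0_conj hb.1 hb.2.1 (c.LL_K0 (t_LL h)))
      (c.LL_K0 (t_LL h))).2.2
    exact not_inv_t h b (by rw [map_inv]; exact eq_inv_of_mul_eq_one_left this)

theorem dec1 {g : 𝐇} (hg : g ∈ M) (e : g * k1 (PG F) = k1 (PG F) * g) : ∃ l ∈ LL h,
    (k1 l)⁻¹ * g * k1 h.h1 = k1 h.h1 * ((k1 l)⁻¹ * g) ∧
      (k1 l)⁻¹ * g * k1 h.dG = k1 h.dG * ((k1 l)⁻¹ * g) := by
  obtain ⟨x, hx, h1⟩ := c.K0_LL ti (K0_conj hg e (c.LL_K0 (a_LL h)))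
  obtain ⟨y, hy, h2⟩ := c.K0_LL ti (K0_conj hg e (c.LL_K0 (t_LL h)))
  have h3 : g * k1 (h.h1 * h.h1) * g⁻¹ = k1 (h.h1 * h.h1) := by
    rw [(comm_P_iff h).2 e, mul_inv_cancel_right]
  obtain ⟨l, hl, h4 | h4⟩ := aut_LL h hx hy
    (k1_injective (by rw [map_mul, ← h1, conj_mul, ← map_mul, h3]))
    (k1_injective (by rw [map_pow, ← h2, conj_pow, ← map_pow, dG_cube]; simp))
    (fun e => not_inv_t h 1 (by
      rw [e, map_one, mul_inv_eq_one, mul_eq_left] at h2; rw [map_inv, h2]; simp))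
    (k1_injective (by
      rw [map_pow, map_mul, ← h1, ← h2, conj_mul, conj_pow, ← map_mul, ← map_pow]
      rcases at_cube h with e | e <;> rw [e]
      · simp
      · exact h3))
  · refine ⟨l, hl, ?_, ?_⟩
    · rw [mul_assoc, mul_inv_eq_iff_eq_mul.1 h1, ← h4.1]; simp [mul_assoc]
    · rw [mul_assoc, mul_inv_eq_iff_eq_mul.1 h2, ← h4.2]; simp [mul_assoc]
  · refine absurd ?_ (not_inv_t h ((k1 l)⁻¹ * g))
    rw [mul_assoc _ g, mul_inv_eq_iff_eq_mul.1 h2, ← h4]; simp [mul_assoc]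

theorem dec2 {g : 𝐇} (hg : g ∈ M) (e : g * N9.k2 (PG F) = N9.k2 (PG F) * g) : ∃ l ∈ LL h,
    (N9.k2 l)⁻¹ * g * N9.k2 h.h1 = N9.k2 h.h1 * ((N9.k2 l)⁻¹ * g) ∧
      (N9.k2 l)⁻¹ * g * N9.k2 h.dG = N9.k2 h.dG * ((N9.k2 l)⁻¹ * g) := by
  obtain ⟨l, hl, h1, h2⟩ := c.dec1 ti (mul_mem (mul_mem c.sw hg) (inv_mem c.sw))
    (by rw [← sw_k2, conj_mul, conj_mul, e])
  refine ⟨l, hl, ?_, ?_⟩
  · simpa only [← sw_k2, conj_inv, conj_mul, mul_left_inj, mul_right_inj] using h1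
  · simpa only [← sw_k2, conj_inv, conj_mul, mul_left_inj, mul_right_inj] using h2

end Cl

end Cfsg.Agent.N9
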