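import Cfsg.Agent.N9.TI1

/-! The normaliser of `3^(1+4)` in `GL₉`: `2`-elements centralising `SL₂(3) × SL₂(3)`. -/

set_option autoImplicit false
set_option linter.unusedSectionVars false
set_option linter.unusedVariables false
set_option linter.unusedSimpArgs false

namespace Cfsg.Agent.N9

open Cfsg Cfsg.Geo Cfsg.Agent.H98 Cfsg.Agent.H99 Cfsg.Agent.H85.L3 Matrix

variable {F : Type*} [Field F] [Fintype F]

local notation "𝐆" => GL (Fin 3) F
local notation "𝐇" => GL I9 F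
local notation "𝐌" => Matrix (Fin 3) (Fin 3) F
local notation "𝐍" => Matrix I9 I9 F
local notation "𝐙" => scalars (Fin 3) F
local notation "𝐒" => scalars I9 F

theorem two_pow_root (k : ℕ) {δ : F} (h : δ ^ 2 ^ k = 1) (h1 : δ ≠ 1) (h2 : δ ≠ -1) :
    ∃ j, (δ ^ 2 ^ j) ^ 2 = -1 := by
  induction k generalizing δ with
  | zero => exact absurd (by simpa using h) h1
  | succ k ih =>
    by_cases h3 : δ ^ 2 = -1
    · exact ⟨0, by simpa using h3⟩
    obtain ⟨j, hj⟩ := ih (δ := δ ^ 2) (by rwa [← pow_mul, ← pow_succ'])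
      (fun e => (mul_self_eq_one_iff.1 (by rwa [← sq])).elim h1 h2) h3
    exact ⟨j + 1, by rwa [← pow_mul δ, ← pow_succ'] at hj⟩

/-- eigenvalue `c` on the fixed space of the parity operator, `d` on `e₁ - e₂` -/
def ev (c d : F) : 𝐌 := !![c, 0, 0; 0, (c + d) / 2, (c - d) / 2; 0, (c - d) / 2, (c + d) / 2]

theorem ev_mul (h2 : (2 : F) ≠ 0) (c d c' d' : F) : ev c d * ev c' d' = ev (c * c') (d * d') := by
  ext i j
  fin_cases i <;> fin_cases j <;> simp [ev] <;> field_simp <;> ring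

theorem ev_self (h2 : (2 : F) ≠ 0) (c : F) : ev c c = c • 1 := by
  ext i j
  fin_cases i <;> fin_cases j <;> simp [ev] <;> field_simp <;> ring

theorem ev_pow (h2 : (2 : F) ≠ 0) (c d : F) (n : ℕ) : ev c d ^ n = ev (c ^ n) (d ^ n) := by
  induction n with
  | zero => simp [ev_self h2]
  | succ n ih => rw [pow_succ, ih, ev_mul h2, pow_succ, pow_succ]

theorem ev_P (h2 : (2 : F) ≠ 0) : ev 1 (-1) = ((PG F : 𝐆) : 𝐌) := by
  rw [coe_PG]
  ext i j
  fin_cases i <;> fin_cases j <;> simp [ev] <;> field_simp <;> ring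

section

variable {ω : F} (h : Om ω)

/-- the action on `(e₁ - e₂) ⊗ F³` of the centraliser of `SL₂(3) × ⟨t⟩` -/
def Gam (M : Subgroup 𝐇) : Subgroup 𝐆 where
  carrier := {v | ∃ g ∈ M, g * k1 h.h1 = k1 h.h1 * g ∧ g * k1 h.dG = k1 h.dG * g ∧
    g * k2 h.dG = k2 h.dG * g ∧ On (JA F) g v ∧ (v : 𝐌) *ᵥ ![1, 0, 0] = ![1, 0, 0]}
  one_mem' := ⟨1, one_mem _, by simp, by simp, by simp, On.one, by simp⟩
  mul_mem' := fun ⟨g, a, b, c, d, e, f⟩ ⟨g', a', b', c', d', e', f'⟩ =>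
    ⟨_, mul_mem a a', Commute.mul_left b b', Commute.mul_left c c', Commute.mul_left d d', e.mul e',
      by rw [Units.val_mul, ← mulVec_mulVec, f', f]⟩
  inv_mem' := fun {v} ⟨g, a, b, c, d, e, f⟩ =>
    ⟨_, inv_mem a, Commute.inv_left b, Commute.inv_left c, Commute.inv_left d, e.inv,
      by nth_rw 1 [← f]; rw [mulVec_mulVec, Units.inv_mul, one_mulVec]⟩

include h

theorem comm_P_of {g : 𝐇} (e : g * k1 h.h1 = k1 h.h1 * g) : g * k1 (PG F) = k1 (PG F) * g :=
  (comm_P_iff h).1 (by rw [map_mul]; exact Commute.mul_right e e)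

omit h in
theorem on_comm {g : 𝐇} {v x : 𝐆} (a : On (JA F) g v) (e : g * k2 x = k2 x * g) : v * x = x * v :=
  (a.mul (on_k2 x)).unique KA_JA (e ▸ (on_k2 x).mul a)

theorem P_x : PG F * h.xG * (PG F)⁻¹ = h.xG⁻¹ := by
  rw [PG_inv, eq_inv_iff_mul_eq_one]
  apply Units.ext
  rw [Units.val_mul, Units.val_mul, Units.val_mul, coe_PG, coe_xG]
  ext i j
  fin_cases i <;> fin_cases j <;> simp <;> linear_combination h.cube

theorem on_zero {g : 𝐇} (e : g * k1 h.dG = k1 h.dG * g) : ∃ v, On (KA F 0)ᵀ g v := by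
  refine exists_on (K := KA F 0) ?_ ?_
  · ext i j
    rw [KA_mul]
    simp [KA, one_apply]
  ext ⟨i, k⟩ j
  have h1 := congrArg (fun x : 𝐇 => (x : 𝐍) (i, k) (0, j)) e
  simp only [dG_eq, k1_eq, bd_dg, Units.val_mul, coe_dg, mul_diagonal, diagonal_mul] at h1
  by_cases h0 : i = 0
  · simp [Matrix.mul_apply, KA, h0]
  · have : (g : 𝐍) (i, k) (0, j) = 0 := mul_left_cancel₀ (sub_ne_zero.2 h.ne_one) (by
      simp [h0, wu] at h1; linear_combination h1)
    simp [Matrix.mul_apply, KA, h0, this]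

theorem on_zero_A (two : (2 : F) = 0) {g : 𝐇} (e : g * k1 h.h1 = k1 h.h1 * g) {v : 𝐆}
    (hv : On (KA F 0)ᵀ g v) : On (JA F) g v := by
  have h1 : JA F = ((ω - ω ^ 2) • ((k1 h.h1 : 𝐇) : 𝐍) - 1) * (KA F 0)ᵀ := by
    ext ⟨i, k⟩ j
    have := h.theta_ne
    rw [mul_KAt, Matrix.sub_apply, Matrix.smul_apply, k1_apply, coe_h1]
    by_cases e : k = j <;> fin_cases i <;> simp [JA, vA, one_apply, e, this]
    linear_combination -two
  rw [On, h1, Matrix.mul_assoc, ← hv, ← Matrix.mul_assoc, ← Matrix.mul_assoc, mul_sub, sub_mul,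
    mul_smul_comm, smul_mul_assoc, ← Units.val_mul, ← Units.val_mul, e, mul_one, one_mul]

end

/-- in characteristic two, `M` preserves orthogonality for the Hermitian form over `GF(4)` -/
def U2 (M : Subgroup 𝐇) : Prop := (2 : F) = 0 → ∀ g ∈ M, ∀ x y : I9 → F,
  ∑ a, x a * y a ^ 2 = 0 → ∑ a, ((g : 𝐍) *ᵥ x) a * ((g : 𝐍) *ᵥ y) a ^ 2 = 0

namespace Cl

variable {ω : F} {h : Om ω} {M : Subgroup (GL I9 F)} (c : Cl h M)
include c

theorem x_Gam : h.xG ∈ Gam h M :=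
  ⟨_, c.k2 c.z, (k1_k2 _ _).symm, (k1_k2 _ _).symm, by
    rw [← map_mul, ← map_mul, xG_eq, dG_eq, ← map_mul, ← map_mul, mul_comm], on_k2 _, by
    rw [coe_xG]; ext i; fin_cases i <;> simp [mulVec, dotProduct, Fin.sum_univ_three]⟩

variable (ti : TI h M)
include ti

theorem K0_cent {g : 𝐇} (hg : g ∈ K0 M) (e1 : g * k1 h.h1 = k1 h.h1 * g)
    (e2 : g * k1 h.dG = k1 h.dG * g) : g = 1 ∨ g = k1 (h.h1 * h.h1) := by
  obtain ⟨l, hl, rfl⟩ := c.K0_LL ti hg
  rcases LL_cent h hl (k1_injective (by simpa using e1)) (k1_injective (by simpa using e2))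
    with rfl | rfl
  exacts [Or.inl (map_one _), Or.inr rfl]

theorem gam_cent {v : 𝐆} (hv : v ∈ Gam h M) (hd : v ∈ specialLinear (Fin 3) F)
    (e : v * h.xG = h.xG * v) : v ∈ Subgroup.zpowers h.xG := by
  obtain ⟨g, hg, h1, h2, -, h4, h5⟩ := hv
  have h6 := comm_P_of h h1
  have z := c.k2 c.z
  have k : ∀ {x : 𝐆}, Commute g (k1 x) →
      Commute (g * N9.k2 h.xG * g⁻¹ * (N9.k2 h.xG)⁻¹) (k1 x) := fun {x} e =>
    have e' : Commute (N9.k2 h.xG) (k1 x) := (k1_k2 _ _).symm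
    ((e.mul_left e').mul_left e.inv_left).mul_left e'.inv_left
  have h7 : g * N9.k2 h.xG * g⁻¹ * (N9.k2 h.xG)⁻¹ = 1 := by
    refine (c.K0_cent ti ⟨mul_mem (mul_mem (mul_mem hg z) (inv_mem hg)) (inv_mem z), k h6, ?_⟩
      (k h1) (k h2)).resolve_right fun e' => aa_ne h (k1_injective ?_)
    · have := ((h4.mul (on_k2 h.xG)).mul h4.inv).mul (on_k2 h.xG).inv
      rwa [e, mul_inv_cancel_right, mul_inv_cancel] at this
    · have := congrArg (· ^ 3) (mul_inv_eq_iff_eq_mul.1 e')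
      rw [conj_pow, Commute.mul_pow (k1_k2 _ _), ← map_pow, ← map_pow, xG_cube, map_one, mul_one,
        mul_one, mul_inv_cancel, pow_succ, sq, aa_aa, one_mul] at this
      rw [← this, map_one]
  have h8 := NN_N3 h (ti _ (k2_RS9 h (x_RS3 h)) (fun e => by
    simpa using (indep_xy h 1 0 (by simpa using k2_mem_sc.1 e)).1) g hg (h7 ▸ one_mem _)) h6 h4
  obtain ⟨t, rfl⟩ := diag_of_comm h e
  have h9 : (t 0 : F) = 1 := by
    have := congrFun h5 0
    rw [coe_dg, mulVec_diagonal] at this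
    simpa using this
  have h10 : ((dg t : 𝐆) : 𝐌) = !![1, 0, 0; 0, (t 1 : F), 0; 0, 0, (t 2 : F)] := by
    ext i j
    fin_cases i <;> fin_cases j <;> simp [dg_apply, h9]
  have h11 : (t 1 : F) * t 2 = 1 := by simpa [h10, det_fin_three] using mem_sl.1 hd
  have k2 : ∀ n : ℕ, (t 1 : F) = ω ^ n → dg t ∈ Subgroup.zpowers h.xG := fun n e => by
    refine ⟨n, Units.ext ?_⟩
    have : (t 2 : F) = (ω ^ 2) ^ n := mul_left_cancel₀ (t 1).ne_zero (by
      rw [h11, e, ← mul_pow, ← pow_succ', h.cube, one_pow])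
    simp only [zpow_natCast, xG_eq, ← map_pow, coe_dg]
    congr 1
    funext i
    fin_cases i <;> simp [wu, h9, e, this]
  rcases h.cases (diag_N3 h h10 h8 h11) with e | e | e
  exacts [k2 0 (by simpa using e), k2 1 (by simpa using e), k2 2 e]

theorem gam_odd (h2 : (2 : F) ≠ 0) :
    Odd (Nat.card ((specialLinear (Fin 3) F).subgroupOf (Gam h M))) := by
  rw [← Nat.not_even_iff_odd, even_iff_two_dvd]
  intro e
  obtain ⟨⟨⟨v, hv⟩, hd⟩, h1⟩ := exists_prime_orderOf_dvd_card' 2 e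
  have hd : v ∈ specialLinear (Fin 3) F := hd
  rw [orderOf_eq_prime_iff] at h1
  have h3 : v * v = 1 := by simpa [sq] using congrArg (fun x => x.1.1) h1.1
  refine h1.2 (Subtype.ext (Subtype.ext ?_))
  change v = 1
  suffices v * h.xG = h.xG * v by
    obtain ⟨n, hn⟩ := c.gam_cent ti hv hd this
    have h4 : v ^ 3 = 1 := by
      rw [← hn, ← zpow_natCast, ← _root_.zpow_mul, mul_comm, _root_.zpow_mul, zpow_natCast, xG_cube,
        _root_.one_zpow]
    rwa [pow_succ, sq, h3, one_mul] at h4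
  obtain ⟨g, -, -, -, h4, h5, h6⟩ := hv
  have h7 := congrArg Units.val (on_comm h5 h4)
  have h8 := congrArg Units.val h3
  have h9 := mem_sl.1 hd
  apply Units.ext
  simp only [Units.val_mul, coe_dG, coe_xG, Units.val_one] at h7 h8 ⊢
  generalize (v : 𝐌) = v at h6 h7 h8 h9
  have n1 := sub_ne_zero.2 h.ne_one
  have a0 := congrFun h6 0
  have a1 := congrFun h6 1
  have a2 := congrFun h6 2
  have b1 := congrFun (congrFun h7 0) 1
  have b2 := congrFun (congrFun h7 0) 2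
  simp [mulVec, dotProduct, Fin.sum_univ_three, Matrix.mul_apply] at a0 a1 a2 b1 b2
  have c1 : v 0 1 = 0 := mul_left_cancel₀ n1 (by linear_combination -b1)
  have c2 : v 0 2 = 0 := mul_left_cancel₀ n1 (by linear_combination -b2)
  have d11 := congrFun (congrFun h8 1) 1
  have d12 := congrFun (congrFun h8 1) 2
  have d21 := congrFun (congrFun h8 2) 1
  rw [det_fin_three] at h9
  simp [Fin.sum_univ_three, Matrix.mul_apply, a0, a1, a2, c1, c2] at d11 d12 d21 h9
  have n2 : v 1 1 + v 2 2 ≠ 0 := fun e => h2 (by linear_combination -h9 - d11 + v 1 1 * e)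
  have e1 : v 1 2 = 0 := mul_left_cancel₀ n2 (by linear_combination d12)
  have e2 : v 2 1 = 0 := mul_left_cancel₀ n2 (by linear_combination d21)
  ext i j
  fin_cases i <;> fin_cases j <;>
    simp [Fin.sum_univ_three, Matrix.mul_apply, a0, a1, a2, c1, c2, e1, e2, mul_comm]

theorem no_four (h2 : (2 : F) ≠ 0) {v : 𝐆} (hv : v ∈ Gam h M) (e : v ^ 2 = PG F) : False := by
  have := (sl_normal (ι := Fin 3) (F := F)).subgroupOf (Gam h M)
  refine lemY ((specialLinear (Fin 3) F).subgroupOf (Gam h M)) (c.gam_odd ti h2)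
    (y := ⟨_, c.x_Gam⟩) (u := ⟨v, hv⟩) (h.Rs_le h.x_mem) (Subtype.ext (xG_cube h))
    (fun e => ?_) (fun g hg e => ?_) (Subtype.ext ?_)
  · have : h.xG = 1 := congrArg Subtype.val e
    simpa using (indep_xy h 1 0 (by simp [this, one_mem])).1
  · obtain ⟨n, hn⟩ := c.gam_cent ti g.2 hg (congrArg Subtype.val e)
    exact ⟨n, Subtype.ext (by simpa using hn)⟩
  · simpa [e] using P_x h

theorem lemT (hU : U2 M) {u : 𝐇} (hu : u ∈ M) (e1 : u * k1 h.h1 = k1 h.h1 * u)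
    (e2 : u * k1 h.dG = k1 h.dG * u) (e3 : u * N9.k2 h.h1 = N9.k2 h.h1 * u)
    (e4 : u * N9.k2 h.dG = N9.k2 h.dG * u) {k : ℕ} (hk : u ^ 2 ^ k ∈ 𝐒) :
    ∃ d, ∃ x ∈ QQ h, ∃ y ∈ QQ h, u = scal I9 d * (k1 x * N9.k2 y) := by
  obtain ⟨v, hv⟩ := exists_onA (comm_P_of h e1)
  obtain ⟨y, z, h1⟩ := cent_at h (on_comm hv e3) (on_comm hv e4)
  have h0 : y + z ≠ 0 := fun e => v.det_ne_zero (by simp [h1, det_fin_three, e])
  have h3 : y = 0 ∨ z = 0 := by
    by_cases h2 : (2 : F) = 0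
    · obtain ⟨v', hv'⟩ := on_zero h e2
      rw [(on_zero_A h h2 e1 hv').unique KA_JA hv] at hv'
      have := hU h2 u hu ((KA F 0)ᵀ *ᵥ ![0, 1, 0]) ((KA F 0)ᵀ *ᵥ ![0, 0, 1])
        (by simp [KA, mulVec, dotProduct, Fintype.sum_prod_type, Fin.sum_univ_three])
      rw [mulVec_mulVec, mulVec_mulVec, hv', h1] at this
      simp [KA, mulVec, dotProduct, Fintype.sum_prod_type, Fin.sum_univ_three,
        Matrix.mul_apply] at this
      exact mul_eq_zero.1 (mul_left_cancel₀ h0 (by linear_combination this))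
    have h4 : ((scal _ (Units.mk0 _ h0)⁻¹ * v : 𝐆) : 𝐌) = ev 1 ((y - z) / (y + z)) := by
      rw [Units.val_mul, coe_scal, h1, smul_mul_assoc, one_mul]
      ext i j
      fin_cases i <;> fin_cases j <;> simp [ev, h0] <;> field_simp <;> ring
    have h5 : scal _ (Units.mk0 _ h0)⁻¹ * v ∈ Gam h M :=
      ⟨scal _ (Units.mk0 _ h0)⁻¹ * u, mul_mem (c.sc (scal_mem _)) hu,
        Commute.mul_left (scal_comm _ _) e1, Commute.mul_left (scal_comm _ _) e2,
        Commute.mul_left (scal_comm _ _) e4, (On.scal _).mul hv, by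
          rw [h4]; ext i; fin_cases i <;> simp [ev, mulVec, dotProduct, Fin.sum_univ_three]⟩
    obtain ⟨e, he⟩ := mem_scalars_iff'.1 hk
    have h6 : ((y - z) / (y + z)) ^ 2 ^ k = 1 := by
      have := congrArg (fun x : 𝐆 => ((scal _ (Units.mk0 _ h0)⁻¹ ^ 2 ^ k * x : 𝐆) : 𝐌))
        ((hv.pow (2 ^ k)).unique KA_JA (h' := scal _ e) (by rw [he]; exact On.scal e))
      rw [← Commute.mul_pow (scal_comm _ _), Units.val_pow_eq_pow_val, h4, ev_pow h2, ← scal_pow,
        ← scal_mul, coe_scal] at this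
      have := congrFun (congrFun this 1) 2
      simp [ev, h2, sub_eq_zero] at this
      exact this.symm
    by_contra hc
    push Not at hc
    obtain ⟨j, hj⟩ := two_pow_root k h6
      (fun e => mul_ne_zero h2 hc.2 (by field_simp at e; linear_combination -e))
      (fun e => mul_ne_zero h2 hc.1 (by field_simp at e; linear_combination e))
    refine c.no_four ti h2 (pow_mem h5 (2 ^ j)) (Units.ext ?_)
    rw [Units.val_pow_eq_pow_val, Units.val_pow_eq_pow_val, h4, ev_pow h2, ev_pow h2, hj, one_pow,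
      one_pow, ev_P h2]
  have aa : h.h1 * h.h1 ∈ QQ h := mul_mem (a_QQ h) (a_QQ h)
  obtain ⟨d, x, hx, h4⟩ : ∃ d, ∃ x ∈ QQ h, v = scal _ d * x := by
    rcases h3 with rfl | rfl
    · refine ⟨-Units.mk0 _ h0, _, aa, Units.ext ?_⟩
      rw [aa_eq, ← mul_assoc, ← scal_mul, Units.val_mul, coe_scal, coe_PG, h1]
      ext i j
      fin_cases i <;> fin_cases j <;> simp
    · refine ⟨Units.mk0 _ h0, 1, one_mem _, Units.ext ?_⟩
      rw [mul_one, coe_scal, h1]
      ext i j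
      fin_cases i <;> fin_cases j <;> simp
  have k : ∀ {x : 𝐆}, Commute u (k1 x) → Commute (u * (N9.k2 v)⁻¹) (k1 x) := fun {x} e =>
    e.mul_left (Commute.inv_left (k1_k2 _ _).symm)
  have h5 := c.K0_cent ti (g := u * (N9.k2 v)⁻¹) ⟨mul_mem hu (inv_mem (by
    rw [h4, map_mul, k2_scal]; exact mul_mem (c.sc (scal_mem _)) (c.k2L hx.1))),
    k (comm_P_of h e1), by simpa using hv.mul (on_k2 v).inv⟩ (k e1) (k e2)
  obtain ⟨x', hx', h6⟩ : ∃ x' ∈ QQ h, u * (N9.k2 v)⁻¹ = k1 x' :=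
    h5.elim (fun e => ⟨1, one_mem _, by rw [e, map_one]⟩) fun e => ⟨_, aa, e⟩
  refine ⟨d, x', hx', x, hx, ?_⟩
  rw [mul_inv_eq_iff_eq_mul.1 h6, h4, map_mul, k2_scal, ← mul_assoc, ← scal_comm, mul_assoc]

end Cl

end Cfsg.Agent.N9
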