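import Cfsg.Agent.N9.TI2

/-! The normaliser of `3^(1+4)` in `GL₉`: overgroups with small centralisers of Pauli matrices. -/

set_option autoImplicit false
set_option linter.unusedSectionVars false
set_option linter.unusedVariables false
set_option linter.unusedSimpArgs false

namespace Cfsg.Agent.N9

open Cfsg Cfsg.Geo Cfsg.Agent.H98 Cfsg.Agent.H99 Cfsg.Agent.H85.L3 Matrix

variable {F : Type*} [Field F] [Fintype F]

local notation "𝐆" => GL (Fin 3) F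
local notation "𝐇" => GL I9 F
local notation "𝐌" => Matrix (Fin 3) (Fin 3) F
local notation "𝐍" => Matrix I9 I9 F
local notation "𝐙" => scalars (Fin 3) F
local notation "𝐒" => scalars I9 F

theorem comm_of_sc {g y : 𝐇} (y2 : y * y = 1) (e : g * y * g⁻¹ * y⁻¹ ∈ 𝐒) : g * y = y * g := by
  obtain ⟨c, hc⟩ := mem_scalars_iff'.1 e
  have h1 := congrArg (fun x : 𝐇 => (x : 𝐍).det) hc
  rw [mul_inv_eq_iff_eq_mul] at hc
  have h2 : (scal I9 c * y) ^ 2 = 1 := by rw [← hc, conj_pow, sq, y2, mul_one, mul_inv_cancel]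
  rw [Commute.mul_pow (scal_comm c y), sq y, y2, mul_one, ← scal_pow, ← scal_one] at h2
  have h3 : (c : F) ^ 2 = 1 := by rw [← Units.val_pow_eq_pow_val, scal_injective h2, Units.val_one]
  simp only [Units.val_mul, det_mul, coe_scal, det_smul, det_one, mul_one, Matrix.coe_units_inv,
    det_nonsing_inv, Ring.inverse_eq_inv'] at h1
  have h4 := g.det_ne_zero
  have h5 := y.det_ne_zero
  have h6 : (c : F) ^ 9 = 1 := by
    rw [show Fintype.card I9 = 9 by simp] at h1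
    rw [← h1]; field_simp
  obtain rfl : c = 1 := Units.ext (by
    change (c : F) = 1
    linear_combination h6 - c * (c ^ 6 + c ^ 4 + c ^ 2 + 1) * h3)
  rwa [scal_one, one_mul, mul_inv_eq_iff_eq_mul] at hc

theorem not_conj_P (g : 𝐇) (d : Fˣ) :
    g * (k1 (PG F) * k2 (PG F)) * g⁻¹ ≠ scal I9 d * k1 (PG F) := fun e => by
  let s : Fin 4 → I9 := ![(0, 1), (1, 0), (1, 1), (1, 2)]
  have h1 : ((g⁻¹ : 𝐇) : 𝐍) * JA F * (KA F 1 * (1 - ((k1 (PG F) : 𝐇) : 𝐍)) * (g : 𝐍)) =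
      1 - (d⁻¹ : F) • ((k1 (PG F) * k2 (PG F) : 𝐇) : 𝐍) := by
    have : k1 (PG F) * k2 (PG F) = scal I9 d * (g⁻¹ * k1 (PG F) * g) := by
      rw [← mul_assoc, ← mul_assoc, scal_comm, mul_assoc _ (scal _ _), ← e]; group
    rw [Matrix.mul_assoc, ← Matrix.mul_assoc (JA F), JA_KA, this, Units.val_mul (scal _ _),
      coe_scal, smul_mul_assoc, one_mul, smul_smul, inv_mul_cancel₀ d.ne_zero, one_smul, sub_mul,
      mul_sub, one_mul, Units.inv_mul, Units.val_mul, Units.val_mul, mul_assoc]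
  have h2 := congrArg (fun A : 𝐍 => (A.submatrix s s).rank) h1
  have h3 : (1 - (d⁻¹ : F) • ((k1 (PG F) * k2 (PG F) : 𝐇) : 𝐍)).submatrix s s = 1 := by
    ext i j
    rw [submatrix_apply, Matrix.sub_apply, Matrix.smul_apply, k1_k2_apply, coe_PG]
    fin_cases i <;> fin_cases j <;> simp [s, one_apply]
  simp only [h3, rank_one, Fintype.card_fin] at h2
  rw [submatrix_mul _ _ s id s Function.bijective_id] at h2
  have := (rank_mul_le_left _ _).trans (rank_le_card_width _) |>.trans' h2.ge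
  simp at this

theorem sw_conj_P : ∃ g : 𝐇, g * k1 (PG F) * g⁻¹ = sw F := by
  refine ⟨pm F ((Equiv.prodComm _ _ * (Equiv.prodCongrLeft fun k : Fin 3 => finRotate 3 ^ k.val) *
    Equiv.prodComm _ _) ^ 2 * (Equiv.prodCongrLeft fun k : Fin 3 => finRotate 3 ^ k.val) ^ 2), ?_⟩
  rw [PG, k1_eq, bd_pm, ← map_inv, ← map_mul, ← map_mul, sw]
  congr 1
  decide +kernel

section

variable {ω : F} (h : Om ω)

/-- `Q₈ × Q₈` times the scalars -/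
def Q9 : Subgroup 𝐇 where
  carrier := {g | ∃ d, ∃ x ∈ QQ h, ∃ y ∈ QQ h, g = scal I9 d * (k1 x * k2 y)}
  one_mem' := ⟨1, 1, one_mem _, 1, one_mem _, by simp [scal_one]⟩
  mul_mem' := by
    rintro _ _ ⟨d, r, hr, s, hs, rfl⟩ ⟨d', r', hr', s', hs', rfl⟩
    refine ⟨d * d', _, mul_mem hr hr', _, mul_mem hs hs', ?_⟩
    rw [map_mul, map_mul, scal_mul, mul_assoc, mul_assoc (scal _ d), ← mul_assoc _ (scal _ d'),
      ← scal_comm, mul_assoc (scal _ d'), mul_assoc, mul_assoc, ← mul_assoc (k2 s), ← k1_k2,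
      mul_assoc]
  inv_mem' := by
    rintro _ ⟨d, r, hr, s, hs, rfl⟩
    exact ⟨d⁻¹, _, inv_mem hr, _, inv_mem hs, by
      rw [k1_k2 r⁻¹, map_inv, map_inv, _root_.mul_inv_rev, _root_.mul_inv_rev, scal_comm, scal_inv]⟩

include h

theorem iota_eq : k1 (h.h1 * h.h1) * k2 (h.h1 * h.h1) = k1 (PG F) * k2 (PG F) := by
  rw [aa_eq, map_mul, map_mul, k1_scal, k2_scal, mul_assoc, ← mul_assoc (k1 _), ← scal_comm,
    ← mul_assoc, ← mul_assoc, ← scal_mul, neg_mul_neg, mul_one, scal_one, one_mul]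

theorem LL_sc {l : 𝐆} (hl : l ∈ LL h) (e : l ∈ 𝐙) : l = 1 := eq_one_of_sc e ((mem_LL h).1 hl).2.2

theorem Q9_pow {x : 𝐇} (hx : x ∈ Q9 h) : x ^ 4 ∈ 𝐒 := by
  obtain ⟨d, y, hy, z, hz, rfl⟩ := hx
  rw [Commute.mul_pow (scal_comm _ _), Commute.mul_pow (k1_k2 _ _), ← map_pow, ← map_pow, hy.2, hz.2]
  simpa using pow_mem (scal_mem d) 4

omit h in
theorem sw_k1_k2 (y z : 𝐆) : sw F * (k1 y * k2 z) * sw F = k1 z * k2 y := by
  rw [k1_k2 z, ← sw_k1 y, ← sw_k2 z, conj_mul, sw_inv]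

theorem Q9_sw {x : 𝐇} (hx : x ∈ Q9 h) : sw F * x * sw F ∈ Q9 h := by
  obtain ⟨d, y, hy, z, hz, rfl⟩ := hx
  exact ⟨d, z, hz, y, hy, by rw [← sw_k1_k2 y z, ← mul_assoc, ← scal_comm]; simp only [mul_assoc]⟩

theorem Q9_invol {x : 𝐇} (hx : x ∈ Q9 h) (e : x * x ∈ 𝐒) :
    x ∈ 𝐒 ∨ x * (k1 (h.h1 * h.h1))⁻¹ ∈ 𝐒 ∨ x * (k2 (h.h1 * h.h1))⁻¹ ∈ 𝐒 ∨
      x * (k1 (h.h1 * h.h1) * k2 (h.h1 * h.h1))⁻¹ ∈ 𝐒 := by
  obtain ⟨d, y, hy, z, hz, rfl⟩ := hx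
  rw [← _root_.sq, Commute.mul_pow (scal_comm _ _),
    Subgroup.mul_mem_cancel_left _ (pow_mem (scal_mem d) 2), Commute.mul_pow (k1_k2 _ _),
    ← map_pow, ← map_pow, _root_.sq, _root_.sq] at e
  have h1 := LL_invol h hy.1 (LL_sc h (mul_mem hy.1 hy.1) (k1_k2_sc e).1)
  have h2 := LL_invol h hz.1 (LL_sc h (mul_mem hz.1 hz.1) (k1_k2_sc e).2)
  rcases h1 with rfl | rfl <;> rcases h2 with rfl | rfl
  · exact Or.inl (by simpa using scal_mem d)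
  · exact Or.inr (Or.inr (Or.inl (by simpa [-map_mul] using scal_mem d)))
  · exact Or.inr (Or.inl (by simpa [-map_mul] using scal_mem d))
  · exact Or.inr (Or.inr (Or.inr (by rw [mul_inv_cancel_right]; exact scal_mem d)))

theorem Q9_tau {x : 𝐇} (hx : x ∈ Q9 h) (e : x * sw F * (x * sw F) ∈ 𝐒) :
    ∃ y ∈ LL h, x * sw F * (k1 y * sw F * (k1 y)⁻¹)⁻¹ ∈ 𝐒 := by
  obtain ⟨d, y, hy, z, hz, rfl⟩ := hx
  have h1 : scal I9 d * (k1 y * k2 z) * sw F * (scal I9 d * (k1 y * k2 z) * sw F) =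
      scal _ (d * d) * (k1 (y * z) * k2 (z * y)) := by
    rw [mul_assoc (scal _ d) _ (sw F), ← mul_assoc _ (scal _ d), ← scal_comm, scal_mul,
      map_mul, map_mul, mul_assoc (k1 y) (k1 z), ← mul_assoc (k1 z), k1_k2 z z,
      mul_assoc (k2 z), ← sw_k1_k2 y z]
    simp only [mul_assoc]
  rw [h1, Subgroup.mul_mem_cancel_left _ (scal_mem _)] at e
  obtain rfl : z = y⁻¹ :=
    eq_inv_of_mul_eq_one_right (LL_sc h (mul_mem hy.1 hz.1) (k1_k2_sc e).1)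
  refine ⟨y, hy.1, ?_⟩
  rw [← sw_k1, map_inv]
  convert scal_mem (ι := I9) d using 1
  rw [sw_inv, mul_assoc (k1 y), mul_assoc _ _ (sw F), mul_assoc (k1 y), mul_assoc _ (sw F), sw_sw]
  group

theorem iota_nc {s : 𝐇} {g x : 𝐇} {d : Fˣ} (e : g * k1 (PG F) * g⁻¹ = scal _ d * s) :
    x * (k1 (h.h1 * h.h1) * k2 (h.h1 * h.h1)) * x⁻¹ * s⁻¹ ∉ 𝐒 := fun hx => by
  obtain ⟨d', hx⟩ := mem_scalars_iff'.1 hx
  rw [mul_inv_eq_iff_eq_mul] at hx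
  refine not_conj_P (g⁻¹ * x) (d' * d⁻¹) ?_
  calc _ = g⁻¹ * (x * (k1 (PG F) * k2 (PG F)) * x⁻¹) * g := by group
    _ = g⁻¹ * (scal _ (d' * d⁻¹) * (scal _ d * s)) * g := by
      rw [← iota_eq h, hx, ← mul_assoc (scal _ _), ← scal_mul, inv_mul_cancel_right]
    _ = _ := by rw [← e, ← mul_assoc, ← scal_comm]; group

theorem iota_z : k1 h.xG * (k1 (h.h1 * h.h1) * k2 (h.h1 * h.h1)) * (k1 h.xG)⁻¹ *
    (k1 (h.h1 * h.h1) * k2 (h.h1 * h.h1))⁻¹ ∉ 𝐒 := fun e => by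
  rw [iota_eq, ← conj_mul, conj_k1_k2, _root_.mul_inv_rev, mul_assoc, mul_inv_cancel_left,
    ← map_inv, ← map_inv, ← map_mul, ← map_mul, ← map_mul, k1_mem_sc] at e
  simpa using (indep_xy h 1 0 (by simpa using sc_of_comm_P h (x_RS3 h) e)).1

theorem comm_P2 {g : 𝐇} (e : g * k2 (h.h1 * h.h1) = k2 (h.h1 * h.h1) * g) :
    g * k2 (PG F) = k2 (PG F) * g := by
  rwa [aa_eq, map_mul, k2_scal, ← mul_assoc, ← scal_comm, mul_assoc, mul_assoc, mul_right_inj] at e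

end

namespace Cl

variable {ω : F} {h : Om ω} {M : Subgroup (GL I9 F)} (c : Cl h M) (ti : TI h M) (hU : U2 M)
include c ti hU

theorem hypJ {g : 𝐇} (hg : g ∈ M) {k : ℕ} (hk : g ^ 2 ^ k ∈ 𝐒)
    (e1 : g * k1 (PG F) = k1 (PG F) * g) (e2 : g * N9.k2 (PG F) = N9.k2 (PG F) * g) :
    g ∈ Q9 h := by
  obtain ⟨l, hl, a1, a2⟩ := c.dec1 ti hg e1
  have h1 := mul_mem (inv_mem (c.k1L hl)) hg
  obtain ⟨m, hm, a3, a4⟩ := c.dec2 ti h1 (Commute.mul_left (Commute.inv_left (k1_k2 _ _)) e2)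
  have h2 := mul_mem (inv_mem (c.k2L hm)) h1
  have kk : ∀ {x : 𝐆}, Commute ((k1 l)⁻¹ * g) (k1 x) →
      Commute ((N9.k2 m)⁻¹ * ((k1 l)⁻¹ * g)) (k1 x) := fun e =>
    Commute.mul_left (Commute.inv_left (k1_k2 _ _).symm) e
  have a5 := kk a1
  have a6 := kk a2
  have h3 : g = k1 l * N9.k2 m * ((N9.k2 m)⁻¹ * ((k1 l)⁻¹ * g)) := by group
  generalize (N9.k2 m)⁻¹ * ((k1 l)⁻¹ * g) = u at a3 a4 a5 a6 h2 h3
  have b1 : ∀ {x : 𝐆}, x ∈ LL h → Commute u (k1 x) := fun hx => comm_LL h a5 a6 hx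
  have b2 : ∀ {x : 𝐆}, x ∈ LL h → Commute u (N9.k2 x) := fun hx => comm_LL h a3 a4 hx
  have b3 : ∀ n : ℕ, g ^ n = k1 (l ^ n) * N9.k2 (m ^ n) * u ^ n := fun n => by
    rw [h3, ((b1 hl).mul_right (b2 hm)).symm.mul_pow, Commute.mul_pow (k1_k2 _ _), map_pow, map_pow]
  have sq : ∀ {x : 𝐆}, x ∈ LL h → Commute (x ^ 2 ^ k) h.h1 → Commute (x ^ 2 ^ k) h.dG →
      x ^ 2 ^ (k + 1) = 1 := fun {x} hx e e' => by
    rw [pow_succ, pow_mul]
    rcases LL_cent h (pow_mem hx _) e e' with e | e <;> rw [e]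
    exacts [one_pow _, by rw [_root_.sq, aa_aa]]
  have c1 : ∀ {x : 𝐆}, x ∈ LL h → Commute (l ^ 2 ^ k) x := fun {x} hx => k1_injective (by
    have := scalars_comm hk (k1 x)
    rwa [b3, mul_assoc, ((b1 hx).pow_left _).eq, ← mul_assoc, mul_assoc (k1 _), ← k1_k2,
      ← mul_assoc, ← mul_assoc, ← mul_assoc, mul_left_inj, mul_left_inj, ← map_mul,
      ← map_mul] at this)
  have c2 : ∀ {x : 𝐆}, x ∈ LL h → Commute (m ^ 2 ^ k) x := fun {x} hx => k2_injective (by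
    have := scalars_comm hk (N9.k2 x)
    rwa [b3, mul_assoc, ((b2 hx).pow_left _).eq, ← mul_assoc, ← mul_assoc, ← mul_assoc,
      mul_left_inj, ← k1_k2, mul_assoc, mul_assoc, mul_right_inj, ← map_mul, ← map_mul] at this)
  have d1 := sq hl (c1 (a_LL h)) (c1 (t_LL h))
  have d2 := sq hm (c2 (a_LL h)) (c2 (t_LL h))
  have d3 : u ^ 2 ^ (k + 1) ∈ 𝐒 := by
    have := pow_mem hk 2
    rwa [← pow_mul, ← pow_succ, b3, d1, d2, map_one, map_one, one_mul, one_mul] at this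
  exact h3 ▸ mul_mem (⟨1, l, QQ_of_pow h hl d1, m, QQ_of_pow h hm d2, by
    rw [scal_one, one_mul]⟩ : _ ∈ Q9 h) (c.lemT ti hU h2 a5 a6 a3 a4 d3)

theorem le_NN : M ≤ NN h := by
  obtain ⟨f, fs, fe⟩ : ∃ f : M →* M ⧸ (𝐒).subgroupOf M, Function.Surjective f ∧
      ∀ a b : M, f a = f b ↔ (a : 𝐇) * (b : 𝐇)⁻¹ ∈ 𝐒 :=
    ⟨QuotientGroup.mk' _, QuotientGroup.mk'_surjective _, fun a b => by
      rw [← mul_inv_eq_one, ← map_inv, ← map_mul, QuotientGroup.mk'_apply,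
        QuotientGroup.eq_one_iff]; rfl⟩
  have f1 : ∀ a : M, f a = 1 ↔ (a : 𝐇) ∈ 𝐒 := fun a => by simpa using fe a 1
  have fc : ∀ a b : M, f a * f b = f b * f a ↔ (a : 𝐇) * b * (a : 𝐇)⁻¹ * (b : 𝐇)⁻¹ ∈ 𝐒 :=
    fun a b => by rw [← map_mul, ← map_mul, fe]; simp [mul_assoc]
  have mem : ∀ {X : Subgroup 𝐇}, 𝐒 ≤ X → ∀ a : M, f a ∈ (X.subgroupOf M).map f ↔ (a : 𝐇) ∈ X :=
    fun {X} hX a => ⟨fun ⟨b, hb, e⟩ => by
      simpa using mul_mem (inv_mem (hX ((fe _ _).1 e))) hb, fun e => ⟨a, e, rfl⟩⟩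
  have mE := mem (sc_RS9 h)
  have mQ := mem (X := Q9 h) fun g hg =>
    let ⟨d, hd⟩ := mem_scalars_iff'.1 hg
    ⟨d, 1, one_mem _, 1, one_mem _, by simpa using hd⟩
  generalize ((RS9 h).subgroupOf M).map f = E at mE
  generalize ((Q9 h).subgroupOf M).map f = Q at mQ
  have nE : ∀ a : M, (a : 𝐇) ∈ NN h → f a ∈ Subgroup.normalizer (E : Set _) := fun a ha =>
    Subgroup.mem_normalizer_fintype fun x hx => by
      obtain ⟨x, rfl⟩ := fs x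
      rw [← map_inv, ← map_mul, ← map_mul]
      exact (mE _).2 (NN_conj h ha ((mE _).1 hx))
  have aa := aa_LL h
  have i1 : k1 (h.h1 * h.h1) * k1 (h.h1 * h.h1) = 1 := by rw [← map_mul, aa_aa, map_one]
  have i2 : N9.k2 (h.h1 * h.h1) * N9.k2 (h.h1 * h.h1) = 1 := by rw [← map_mul, aa_aa, map_one]
  have nc : ∀ {s : 𝐇} (hs : s ∈ M), (∃ (g : 𝐇) (d : Fˣ), g * k1 (PG F) * g⁻¹ = scal _ d * s) →
      ¬ IsConj (f ⟨_, c.k1L aa⟩ * f ⟨_, c.k2L aa⟩) (f ⟨s, hs⟩) := fun {s} hs ⟨g, d, e⟩ e' => by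
    obtain ⟨x, hx⟩ := isConj_iff.1 e'
    obtain ⟨x, rfl⟩ := fs x
    rw [← map_inv, ← map_mul, ← map_mul, ← map_mul, fe] at hx
    exact iota_nc h e hx
  have key := ti_abs E Q (f ⟨_, c.sw⟩) (f ⟨_, c.a⟩) (f ⟨_, c.k1L aa⟩) (f ⟨_, c.k2L aa⟩)
    ?_ ?_ ?_ ?_ ?_ ?_ ?_ ?_ ?_ ?_ ?_ ?_ ?_ ?_ ?_ ?_ ?_ ?_
    (nc _ ⟨1, -1, by rw [PG_eq h, map_mul, k1_scal]; simp⟩)
    (nc _ (let ⟨g, e⟩ := sw_conj_P (F := F); ⟨g, 1, by rw [e, scal_one, one_mul]⟩)) ?_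
  · intro g hg
    refine Subgroup.mem_normalizer_fintype fun x hx => ?_
    have := key.conj_mem _ ((mE ⟨x, c.RS hx⟩).2 hx) (f ⟨g, hg⟩)
    rw [← map_inv, ← map_mul, ← map_mul] at this
    exact (mE _).1 this
  · intro x hx
    obtain ⟨x, rfl⟩ := fs x
    rw [← map_pow, f1]
    exact cube_RS9 h ((mE _).1 hx)
  · intro x hx y hy
    obtain ⟨x, rfl⟩ := fs x
    obtain ⟨y, rfl⟩ := fs y
    exact (fc _ _).2 (comm_RS9 h ((mE _).1 hx) ((mE _).1 hy))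
  · intro g hg
    obtain ⟨g, rfl⟩ := fs g
    exact (mE _).2 (RS9_of_comm h fun r hr => (fc _ ⟨r, c.RS hr⟩).1 (hg _ ((mE _).2 hr)))
  · refine ⟨f ⟨_, c.z⟩, (mE _).2 (k1_RS9 h (x_RS3 h)), f ⟨_, c.x⟩, (mE _).2 (k1_RS9 h (y_RS3 h)),
      fun i j e => indep_xy h i j (k1_mem_sc.1 ?_)⟩
    rw [← map_pow, ← map_pow, ← map_mul, f1] at e
    simpa using e
  · intro x hx y hy x1 y1
    obtain ⟨x, rfl⟩ := fs x
    obtain ⟨y, rfl⟩ := fs y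
    obtain ⟨n, hn, d, hd⟩ := c.inf.tr ((mE _).1 hx) (mt (f1 _).2 x1)
    obtain ⟨m, hm, e, he⟩ := c.inf.tr ((mE _).1 hy) (mt (f1 _).2 y1)
    refine ⟨f ⟨m⁻¹ * n, mul_mem (inv_mem hm.1) hn.1⟩, nE _ (mul_mem (inv_mem hm.2) hn.2), ?_⟩
    rw [← map_inv, ← map_mul, ← map_mul, fe]
    have := scalars_normal.conj_mem _ (mul_mem (scal_mem d) (inv_mem (scal_mem (ι := I9) e))) m⁻¹
    convert this using 1
    calc _ = m⁻¹ * ((n * x * n⁻¹) * (m * y * m⁻¹)⁻¹) * m⁻¹⁻¹ := by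
          simp only [Subgroup.coe_mul, Subgroup.coe_inv]; group
      _ = _ := by rw [hd, he]; group
  · intro x hx x1 g e
    obtain ⟨x, rfl⟩ := fs x
    obtain ⟨g, rfl⟩ := fs g
    exact nE _ (ti _ ((mE _).1 hx) (mt (f1 _).2 x1) _ g.2 ((fc _ _).1 e))
  · refine ⟨f ⟨_, c.z⟩, (mE _).2 (k1_RS9 h (x_RS3 h)), fun e => ?_⟩
    rw [← map_mul, eq_comm, fc] at e
    exact iota_z h e
  · rintro ⟨x, hx⟩
    obtain ⟨x, rfl⟩ := fs x
    refine ⟨2, Subtype.ext ?_⟩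
    change f x ^ 4 = 1
    rw [← map_pow, f1]
    exact Q9_pow h ((mQ _).1 hx)
  · exact (mQ _).2 ⟨1, _, a_QQ h, 1, one_mem _, by simp [scal_one]⟩
  · rw [← map_mul]; exact congrArg f (Subtype.ext (map_mul _ _ _).symm)
  · rw [← map_mul, ← map_one f]; exact congrArg f (Subtype.ext sw_sw)
  · rw [← map_mul, ← map_mul]
    exact congrArg f (Subtype.ext (by have := sw_k1 (h.h1 * h.h1); rwa [sw_inv] at this))
  · intro x hx
    obtain ⟨x, rfl⟩ := fs x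
    rw [← map_mul, ← map_mul]
    exact (mQ _).2 (Q9_sw h ((mQ _).1 hx))
  · rw [← map_mul, ← map_one f]; exact congrArg f (Subtype.ext i1)
  · exact fun e => aa_ne h (LL_sc h aa (k1_mem_sc.1 ((f1 _).1 e)))
  · rw [← map_mul, ← map_mul]; exact congrArg f (Subtype.ext (k1_k2 _ _))
  · intro x hx e
    obtain ⟨x, rfl⟩ := fs x
    rw [← map_mul, f1] at e
    rw [← map_mul, f1, fe, fe, fe]
    exact Q9_invol h ((mQ _).1 hx) e
  · intro x hx e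
    obtain ⟨x, rfl⟩ := fs x
    rw [← map_mul, ← map_mul, f1] at e
    obtain ⟨y, hy, e⟩ := Q9_tau h ((mQ _).1 hx) e
    refine isConj_iff.2 ⟨f ⟨_, c.k1L hy⟩, ?_⟩
    rw [← map_inv, ← map_mul, ← map_mul, ← map_mul, eq_comm, fe]
    exact e
  · rintro g ⟨k, hk⟩ e1 e2
    obtain ⟨g, rfl⟩ := fs g
    rw [← map_pow, f1] at hk
    have e3 := comm_of_sc i1 ((fc g ⟨_, c.k1L aa⟩).1 e1)
    have e4 := comm_of_sc i2 ((fc g ⟨_, c.k2L aa⟩).1 e2)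
    exact (mQ _).2 (c.hypJ ti hU g.2 hk ((comm_P_iff h).1 e3) (comm_P2 h e4))

end Cl

end Cfsg.Agent.N9
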